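import Cfsg.Agent.H56.ContribBounds
import Cfsg.Agent.H22.PairDict
import Cfsg.Agent.H40.AbelianSubsections

/-!
# The norm of a character distributed over the subsections

The square norm of a character is the sum, over all subsections, of its contribution divided by
`p` to the defect of the block.  This holds for all Galois twists, with non-negative terms, so
pairwise non-conjugate subsections contribute at most `1` in total.
-/

set_option autoImplicit false
set_option linter.unusedSectionVars false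

open scoped ComplexConjugate

namespace Cfsg.Agent.H41.SectionSum

open Cfsg.Agent.H32
open Cfsg.Agent.H56.Subsec (CZ theta bpart cont mem')
open Cfsg.Agent.H22 (el cj cS conjEquiv conjSet)
open Cfsg.Agent.H43 (irrCongr)
open scoped Classical

variable {G : Type*} [Group G] [Fintype G] {p : ℕ} [hp : Fact p.Prime] {M : Ideal Cfsg.AlgInt}

/-- The share of a subsection in the norm of `χ`. -/
noncomputable def share (p : ℕ) (y : G) (b : Set (Cfsg.IrrCharacter (CZ y)))
    (χ : Cfsg.IrrCharacter G) (k : ℕ) : ℂ :=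
  cont p y b χ χ k / (p : ℂ) ^ Cfsg.blockDefect p b

theorem share_one [M.IsMaximal] {y : G} {b : Set (Cfsg.IrrCharacter (CZ y))}
    (hb : Cfsg.IsPBlock M b) (χ : Cfsg.IrrCharacter G) :
    share p y b χ 1 =
      (Nat.card (CZ y) : ℂ)⁻¹ * ∑ x : CZ y, bpart p y b χ x * conj (bpart p y b χ x) := by
  rw [share, H56.Subsec.cont_one_eq hb,
    mul_div_cancel_left₀ _ (pow_ne_zero _ (Nat.cast_ne_zero.2 hp.out.ne_zero : (p : ℂ) ≠ 0))]

theorem ringAut_share {y : G} {b : Set (Cfsg.IrrCharacter (CZ y))} {N : ℕ} (hN : y ^ N = 1)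
    (σ : ℂ ≃+* ℂ) {i : ℕ} (hσ : ∀ z : ℂ, z ^ N = 1 → σ z = z ^ i) (χ : Cfsg.IrrCharacter G)
    (k : ℕ) : σ (share p y b χ k) = share p y b χ (i * k) := by
  rw [share, map_div₀, H56.Subsec.ringAut_cont hN σ hσ, map_pow, map_natCast, share]

theorem theta_isClassFunction (y : G) (χ : Cfsg.IrrCharacter G) :
    Cfsg.IsClassFunction (CZ y) (theta y χ) := by
  intro c d
  have hd : Commute (d : G) y := mem_centralizer_zpowers_iff.1 d.2
  show (χ : G → ℂ) (y * ((d * c * d⁻¹ : CZ y) : G)) = (χ : G → ℂ) (y * (c : G))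
  rw [← H26.irr_conj χ (y * (c : G)) (d : G)]
  congr 1
  push_cast
  rw [← mul_assoc (d : G) y, hd.eq]
  simp [mul_assoc]

/-- All blocks of a centralizer share the norm of `χ` on the section. -/
theorem sum_share_one (hM : Cfsg.IsPModular p M) (y : G) (χ : Cfsg.IrrCharacter G) :
    ∑ b ∈ Finset.univ.image (fun ξ : Cfsg.IrrCharacter (CZ y) => Cfsg.blockOf M (ξ : CZ y → ℂ)),
      share p y b χ 1 =
    (Nat.card (CZ y) : ℂ)⁻¹ * ∑ s ∈ Finset.univ.filter (fun s : CZ y => Cfsg.IsPRegular p s),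
      (χ : G → ℂ) (y * s) * conj ((χ : G → ℂ) (y * s)) := by
  haveI := hM.2.1
  have hblk : ∀ b ∈ Finset.univ.image
      (fun ξ : Cfsg.IrrCharacter (CZ y) => Cfsg.blockOf M (ξ : CZ y → ℂ)),
      Cfsg.IsPBlock M b := fun b hb => by
    obtain ⟨ξ, -, rfl⟩ := Finset.mem_image.1 hb
    exact ⟨ξ, rfl⟩
  rw [Finset.sum_congr rfl fun b hb => share_one (hblk b hb) χ, ← Finset.mul_sum]
  congr 1
  have hsa : ∀ b ∈ Finset.univ.image
      (fun ξ : Cfsg.IrrCharacter (CZ y) => Cfsg.blockOf M (ξ : CZ y → ℂ)),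
      ∑ x : CZ y, bpart p y b χ x * conj (bpart p y b χ x) =
      ∑ t : CZ y, bpart p y b χ t * conj (theta y χ t) := by
    intro b hb
    conv_rhs => enter [2, t]; rw [← H56.Subsec.isProj_bpart hM (hblk b hb) χ t]
    simp only [bpart, Matrix.mulVec, dotProduct, map_sum, map_mul,
      H56.Subsec.conj_projKernel hM (hblk b hb), Finset.mul_sum, Finset.sum_mul]
    rw [Finset.sum_comm]
    refine Finset.sum_congr rfl fun t _ => Finset.sum_congr rfl fun x _ =>
      Finset.sum_congr rfl fun z _ => ?_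
    ring
  rw [Finset.sum_congr rfl hsa, Finset.sum_comm, Finset.sum_filter]
  refine Finset.sum_congr rfl fun s _ => ?_
  split_ifs with hs
  · rw [← Finset.sum_mul]
    congr 1
    have := sum_blockPart_blocks M (theta_isClassFunction y χ) s
    refine Eq.trans ?_ this.symm
    refine Finset.sum_congr rfl fun b _ => ?_
    rw [bpart, ← pRegularPart_blockPart, Cfsg.pRegularPart, if_pos hs]
  · refine Finset.sum_eq_zero fun b _ => ?_
    rw [bpart, ← pRegularPart_blockPart, Cfsg.pRegularPart, if_neg hs, zero_mul]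

theorem classInner_comp_equiv {H K : Type*} [Group H] [Fintype H] [Group K] [Fintype K]
    (e : H ≃* K) (f g : K → ℂ) :
    Cfsg.classInner (fun h => f (e h)) (fun h => g (e h)) = Cfsg.classInner f g := by
  rw [Cfsg.classInner, Cfsg.classInner, Nat.card_congr e.toEquiv]
  congr 1
  exact Fintype.sum_equiv e.toEquiv _ _ fun h => rfl

/-- Shares are invariant under conjugation. -/
theorem share_conjSet [M.IsMaximal] {u x g : G} (hg : g * u * g⁻¹ = x)
    (hK : cS g (CZ u) = CZ x) {b : Set (Cfsg.IrrCharacter (CZ u))} (hb : Cfsg.IsPBlock M b)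
    (χ : Cfsg.IrrCharacter G) :
    share p x (conjSet g (CZ u) (CZ x) hK b) χ 1 = share p u b χ 1 := by
  rw [share_one (H22.isPBlock_conjSet hK hb), share_one hb]
  set e := conjEquiv g (CZ u) (CZ x) hK
  rw [← Nat.card_congr e.toEquiv]
  congr 1
  symm
  refine Fintype.sum_equiv e.toEquiv _ _ fun c => ?_
  have hθ : ∀ c : CZ u, theta x χ (e c) = theta u χ c := by
    intro c
    show (χ : G → ℂ) (x * (g * (c : G) * g⁻¹)) = (χ : G → ℂ) (u * (c : G))
    rw [← H26.irr_conj χ (u * (c : G)) g, ← hg]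
    congr 1
    group
  have hB : bpart p x (conjSet g (CZ u) (CZ x) hK b) χ (e c) = bpart p u b χ c := by
    rw [bpart, bpart, ← pRegularPart_blockPart, ← pRegularPart_blockPart]
    simp only [Cfsg.pRegularPart, Cfsg.IsPRegular, MulEquiv.orderOf_eq]
    by_cases hc : p ∣ orderOf c
    · simp [hc]
    · simp only [hc, not_false_eq_true, if_true]
      rw [blockPart_eq_sum, blockPart_eq_sum]
      symm
      refine Finset.sum_bij (fun φ _ => irrCongr e.symm φ) (fun φ hφ => ?_)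
        (fun φ _ ψ _ h => H22.irrCongr_injective e.symm h) (fun ψ hψ => ?_) (fun φ _ => ?_)
      · rw [Finset.mem_filter] at hφ ⊢
        exact ⟨Finset.mem_univ _, Set.mem_image_of_mem _ hφ.2⟩
      · obtain ⟨φ, hφ, rfl⟩ := (Finset.mem_filter.1 hψ).2
        exact ⟨φ, Finset.mem_filter.2 ⟨Finset.mem_univ _, hφ⟩, rfl⟩
      · have h1 : (fun h : CZ u => theta x χ (e h)) = theta u χ := funext hθ
        have h2 : (fun h : CZ u => (irrCongr e.symm φ : CZ x → ℂ) (e h)) = (φ : CZ u → ℂ) :=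
          funext fun h => by rw [H43.irrCongr_apply, MulEquiv.symm_apply_apply]
        rw [H43.irrCongr_apply, MulEquiv.symm_apply_apply,
          ← classInner_comp_equiv e (theta x χ), h1, h2]
  show _ = bpart p x _ χ (e c) * conj (bpart p x _ χ (e c))
  rw [hB]

/-- Shares are real and non-negative at every exponent. -/
theorem share_nonneg (hM : Cfsg.IsPModular p M) {y : G} (hy : ∃ k : ℕ, orderOf y = p ^ k)
    {b : Set (Cfsg.IrrCharacter (CZ y))} (hb : Cfsg.IsPBlock M b) {N : ℕ} (hN0 : N ≠ 0)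
    (hN : y ^ N = 1) (χ : Cfsg.IrrCharacter G) {k : ℕ} (hk : k ∈ H56.Twist.units N) :
    0 ≤ (share p y b χ k).re := by
  haveI := hM.2.1
  haveI := H41.IsPModular.charP hM
  obtain ⟨j, hj⟩ := hy
  have hQ : IsPGroup p (Subgroup.zpowers y) :=
    IsPGroup.of_card (n := j) (by rw [Nat.card_zpowers, hj])
  obtain ⟨B, hind⟩ := H40.exists_isInducedBlock hM hQ
    (show Subgroup.zpowers y ≤ CZ y from Subgroup.zpowers_le.2
      (mem_centralizer_zpowers_iff.2 (Commute.refl y)))
    le_rfl (Subgroup.centralizer_le_normalizer _) hb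
  have h := H56.Subsec.re_cont_self_nonneg hM ⟨j, hj⟩ hind hN0 hN χ hk
  rw [share, show (p : ℂ) ^ Cfsg.blockDefect p b =
    (((p : ℝ) ^ Cfsg.blockDefect p b : ℝ) : ℂ) by push_cast; rfl, Complex.div_ofReal_re]
  exact div_nonneg h (pow_nonneg (Nat.cast_nonneg _) _)

/-- Pairwise non-conjugate subsections share at most the norm of `χ`. -/
theorem sum_share_le [M.IsMaximal] (hM : Cfsg.IsPModular p M) {N : ℕ} (hN0 : N ≠ 0)
    (hN : ∀ y : G, (∃ k : ℕ, orderOf y = p ^ k) → y ^ N = 1)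
    (Z : Finset G) (hZ : ∀ u ∈ Z, ∃ k : ℕ, orderOf u = p ^ k)
    (b : ∀ u : G, Set (Cfsg.IrrCharacter (CZ u))) (hb : ∀ u ∈ Z, Cfsg.IsPBlock M (b u))
    (hinj : ∀ u ∈ Z, ∀ v ∈ Z, ∀ g : G, g * u * g⁻¹ = v →
      cj g (el M (CZ u) (b u)) = el M (CZ v) (b v) → u = v)
    (χ : Cfsg.IrrCharacter G) {k : ℕ} (hk : k ∈ H56.Twist.units N) :
    ∑ u ∈ Z, (share p u (b u) χ k).re ≤ 1 := by
  -- representatives of the classes of `p`-elements
  let X : Finset G := (Finset.univ.filter fun g : G => ∃ k : ℕ, orderOf g = p ^ k).image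
    fun g => Quotient.out (ConjClasses.mk g)
  have hout : ∀ g : G, IsConj g (Quotient.out (ConjClasses.mk g)) := fun g =>
    (ConjClasses.mk_eq_mk_iff_isConj.1 (Quotient.out_eq (ConjClasses.mk g))).symm
  have hX : ∀ x ∈ X, ∃ k : ℕ, orderOf x = p ^ k := by
    intro x hx
    obtain ⟨g, hg, rfl⟩ := Finset.mem_image.1 hx
    obtain ⟨c, hc⟩ := isConj_iff.1 (hout g)
    obtain ⟨k, hk⟩ := (Finset.mem_filter.1 hg).2
    exact ⟨k, by rw [← hc, ← MulAut.conj_apply, MulEquiv.orderOf_eq, hk]⟩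
  have hXrep : ∀ g : G, (∃ k : ℕ, orderOf g = p ^ k) → ∃! x, x ∈ X ∧ IsConj g x := by
    refine fun g hg => ⟨_, ⟨Finset.mem_image.2 ⟨g, Finset.mem_filter.2 ⟨Finset.mem_univ _, hg⟩,
      rfl⟩, hout g⟩, ?_⟩
    rintro y ⟨hy, hgy⟩
    obtain ⟨g', -, rfl⟩ := Finset.mem_image.1 hy
    rw [ConjClasses.mk_eq_mk_iff_isConj.2 (hgy.trans (hout g').symm)]
  let I : Finset (Σ x : G, Set (Cfsg.IrrCharacter (CZ x))) :=
    X.sigma fun x => Finset.univ.image
      (fun ξ : Cfsg.IrrCharacter (CZ x) => Cfsg.blockOf M (ξ : CZ x → ℂ))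
  have htot : ∑ i ∈ I, share p i.1 i.2 χ 1 = 1 := by
    rw [Finset.sum_sigma]
    simp only [sum_share_one hM]
    have hf : Cfsg.IsClassFunction G (fun g => (χ : G → ℂ) g * conj ((χ : G → ℂ) g)) :=
      fun g h => by simp only [H26.irr_conj]
    have hs := sum_eq_sum_sections hX hXrep hf
    have h := H26.classInner_irr χ χ
    rw [if_pos rfl, Cfsg.classInner, hs, Finset.mul_sum] at h
    rw [← h]
    refine Finset.sum_congr rfl fun x hx => ?_
    have main : ∀ (L : Subgroup G), L = Subgroup.centralizer ({x} : Set G) →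
        (Nat.card L : ℂ)⁻¹ * ∑ s ∈ Finset.univ.filter (fun s : L => Cfsg.IsPRegular p s),
          (χ : G → ℂ) (x * s) * conj ((χ : G → ℂ) (x * s)) =
        (Nat.card G : ℂ)⁻¹ * ((Nat.card G : ℂ) /
          (Nat.card (Subgroup.centralizer ({x} : Set G)) : ℂ) *
          ∑ s ∈ Finset.univ.filter
            (fun s : Subgroup.centralizer ({x} : Set G) => Cfsg.IsPRegular p s),
            (χ : G → ℂ) (x * s) * conj ((χ : G → ℂ) (x * s))) := by
      intro L hL
      subst hL
      rw [← mul_assoc, ← mul_div_assoc,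
        inv_mul_cancel₀ (Nat.cast_ne_zero.2 Nat.card_pos.ne'), one_div]
    exact main (CZ x) (H40.centralizer_zpowers_eq x)
  have htotk : ∑ i ∈ I, share p i.1 i.2 χ k = 1 := by
    obtain ⟨σ, hσ⟩ := H45.exists_ringAut_pow hN0 (Finset.mem_filter.1 hk).2
    have h := congrArg σ htot
    rw [map_sum, map_one] at h
    rw [← h]
    refine Finset.sum_congr rfl fun i hi => ?_
    rw [ringAut_share (hN _ (hX _ (Finset.mem_sigma.1 hi).1)) σ hσ, mul_one]
  -- the given subsections among all of them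
  have hrep : ∀ u : G, ∃ x g, (u ∈ Z → x ∈ X) ∧ g * u * g⁻¹ = x := fun u => by
    obtain ⟨g, hg⟩ := isConj_iff.1 (hout u)
    exact ⟨_, g, fun hu => Finset.mem_image.2
      ⟨u, Finset.mem_filter.2 ⟨Finset.mem_univ _, hZ u hu⟩, rfl⟩, hg⟩
  choose xof gof hxof hgof using hrep
  have hcs : ∀ u : G, cS (gof u) (CZ u) = CZ (xof u) := fun u => by
    rw [H22.cS_centralizer, show cS (gof u) (Subgroup.zpowers u) = Subgroup.zpowers (xof u) by
      rw [← hgof u]; exact MonoidHom.map_zpowers _ _]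
  let Φ : G → (Σ x : G, Set (Cfsg.IrrCharacter (CZ x))) := fun u =>
    ⟨xof u, conjSet (gof u) _ _ (hcs u) (b u)⟩
  have hΦI : ∀ u ∈ Z, Φ u ∈ I := by
    intro u hu
    refine Finset.mem_sigma.2 ⟨hxof u hu, ?_⟩
    obtain ⟨ξ, hξ⟩ := H22.isPBlock_conjSet (hcs u) (hb u hu)
    exact Finset.mem_image.2 ⟨ξ, Finset.mem_univ _, hξ.symm⟩
  have hΦinj : Set.InjOn Φ ↑Z := by
    intro u hu v hv h
    have hx : xof u = xof v := congrArg Sigma.fst h
    refine hinj u hu v hv ((gof v)⁻¹ * gof u) ?_ ?_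
    · calc _ = (gof v)⁻¹ * (gof u * u * (gof u)⁻¹) * gof v := by group
        _ = (gof v)⁻¹ * (gof v * v * (gof v)⁻¹) * gof v := by rw [hgof, hgof, hx]
        _ = _ := by group
    · have he : ∀ w, el M (CZ (Φ w).1) (Φ w).2 = cj (gof w) (el M (CZ w) (b w)) := fun w =>
        H22.el_conjSet _ _ _ (hcs w) _
      rw [H22.cj_mul_apply, ← he, h, he, H22.cj_inv_cj]
  have hshare : ∀ u ∈ Z, share p (Φ u).1 (Φ u).2 χ k = share p u (b u) χ k := by
    intro u hu
    obtain ⟨σ, hσ⟩ := H45.exists_ringAut_pow hN0 (Finset.mem_filter.1 hk).2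
    have h := congrArg σ (share_conjSet (hgof u) (hcs u) (hb u hu) χ (p := p))
    rw [ringAut_share (hN _ (hX _ (hxof u hu))) σ hσ, ringAut_share (hN _ (hZ u hu)) σ hσ,
      mul_one] at h
    exact h
  calc ∑ u ∈ Z, (share p u (b u) χ k).re = ∑ i ∈ Z.image Φ, (share p i.1 i.2 χ k).re := by
        rw [Finset.sum_image hΦinj]
        exact Finset.sum_congr rfl fun u hu => by rw [hshare u hu]
    _ ≤ ∑ i ∈ I, (share p i.1 i.2 χ k).re := by
        refine Finset.sum_le_sum_of_subset_of_nonneg (Finset.image_subset_iff.2 hΦI)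
          fun i hi _ => ?_
        obtain ⟨hix, hib⟩ := Finset.mem_sigma.1 hi
        obtain ⟨ξ, -, hξ⟩ := Finset.mem_image.1 hib
        exact share_nonneg hM (hX _ hix) ⟨ξ, hξ.symm⟩ hN0 (hN _ (hX _ hix)) χ hk
    _ = 1 := by rw [← Complex.re_sum, htotk, Complex.one_re]

end Cfsg.Agent.H41.SectionSum
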