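import Cfsg.Agent.H41.BrauerBlock
import Cfsg.Agent.H32.BlockCount
import Cfsg.Agent.H40.SecondMain
import Cfsg.Agent.H45.Galois

/-!
# Galois twists of a block: `p`-rational characters bound the regular rank from above

On each `p`-section the twist acts through an automorphism of the centralizer, whose trace on the
regular part of a block is a sum of multiplicities of transported idempotents, hence non-negative.
-/

set_option autoImplicit false
set_option linter.unusedSectionVars false

namespace Cfsg.Agent.H41.BrauerChar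

open Cfsg (IrrCharacter IsPPart)
open Cfsg.Agent.H41 (ResField localRing res)
open Cfsg.Agent.H40 (trAt trBar redG ofFun)
open Cfsg.Agent.H22.AlgPoints (Point)
open scoped ComplexConjugate

universe u

section Twist

variable {G : Type u} [Group G] [Fintype G] {p : ℕ} [Fact p.Prime] {M : Ideal Cfsg.AlgInt}
  [M.IsMaximal] [IsAlgClosed (ResField M)] [CharP (ResField M) p]
  [FiniteDimensional (ResField M) (MonoidAlgebra (ResField M) G)]
  [Fintype (Point (MonoidAlgebra (ResField M) G))] [DecidableEq (Pt M G)]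
  (hM : Cfsg.IsPModular p M)

include hM in
open scoped Classical in
/-- The twisted norm of a block on regular elements is a non-negative multiple of the order. -/
theorem exists_twisted_norm (τ : G ≃* G) {b : Set (IrrCharacter G)} (hb : Cfsg.IsPBlock M b) :
    ∃ n : ℕ, ∑ s ∈ Finset.univ.filter (fun s : G => ¬ p ∣ orderOf s),
      ∑ χ ∈ Finset.univ.filter (· ∈ b), (χ : G → ℂ) (τ s) * conj ((χ : G → ℂ) s) =
        (Nat.card G : ℂ) * n := by
  let Φ : Pt M G → G → ℂ := fun c g =>
    ∑ χ ∈ Finset.univ.filter (· ∈ b), (dec hM χ c : ℂ) * (χ : G → ℂ) g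
  have hvan : ∀ g : G, p ∣ orderOf g → ∀ c, conj (Φ c g) = 0 := fun g hg c => by
    refine congrFun (phi_indep hM (z := fun c => conj (Φ c g)) fun s hs => ?_) c
    rw [← H40.sum_block_mul_conj_eq_zero hM hb hs hg]
    simp only [Φ, map_sum, map_mul, Complex.conj_natCast, Finset.sum_mul]
    rw [Finset.sum_comm]
    refine Finset.sum_congr rfl fun χ _ => ?_
    rw [irr_eq_sum_phi hM hs χ, Finset.sum_mul]
    exact Finset.sum_congr rfl fun c _ => by ring
  choose E hE hEc using fun c : Pt M G => exists_lift (M := M) c.out.2.idem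
  let τE : Pt M G → MonoidAlgebra (localRing M) G := fun c => ofFun fun g => (E c).coeff (τ.symm g)
  have hτE : ∀ c, τE c * τE c = τE c := fun c => by
    refine H40.ext_coeff fun g => ?_
    have h := congrArg (fun a : MonoidAlgebra (localRing M) G => a.coeff (τ.symm g)) (hE c)
    simp only [H40.coeff_mul_eq_sum] at h ⊢
    simp only [τE, H40.coeff_ofFun]
    rw [← h]
    refine Fintype.sum_equiv τ.symm.toEquiv _ _ fun x => ?_
    simp [map_mul, map_inv]
  choose m hm using fun c : Pt M G =>
    (exists_mult hM (e := redG M G (τE c)) (by rw [← map_mul, hτE])).imp fun _ h => h.1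
  refine ⟨∑ c ∈ Finset.univ.filter (fun c => ∃ χ, χ ∈ b ∧ dec hM χ c ≠ 0), m c c, ?_⟩
  calc _ = ∑ s : G, ∑ c, phi hM c (τ s) * conj (Φ c s) := by
        rw [Finset.sum_filter]
        refine Finset.sum_congr rfl fun s _ => ?_
        by_cases hs : p ∣ orderOf s
        · rw [if_neg (not_not.2 hs)]
          exact (Finset.sum_eq_zero fun c _ => by rw [hvan s hs, mul_zero]).symm
        · rw [if_pos hs]
          simp only [Φ, map_sum, map_mul, Complex.conj_natCast, Finset.mul_sum]
          rw [Finset.sum_comm]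
          refine Finset.sum_congr rfl fun χ _ => ?_
          rw [irr_eq_sum_phi hM (by rwa [MulEquiv.orderOf_eq]) χ, Finset.sum_mul]
          exact Finset.sum_congr rfl fun c _ => by ring
    _ = _ := by
      rw [Finset.sum_comm, Nat.cast_sum, Finset.mul_sum, Finset.sum_filter]
      refine Finset.sum_congr rfl fun c _ => ?_
      split_ifs with hc
      swap
      · push Not at hc
        refine Finset.sum_eq_zero fun s _ => ?_
        have : Φ c s = 0 := Finset.sum_eq_zero fun χ hχ => by
          rw [hc χ (Finset.mem_filter.1 hχ).2, Nat.cast_zero, zero_mul]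
        rw [this, map_zero, mul_zero]
      obtain ⟨χ₀, hχ₀, hd0⟩ := hc
      have hin : ∀ η : IrrCharacter G, ∑ s : G, (η : G → ℂ) (τ s) * conj (Φ c s) =
          (Nat.card G : ℂ) * ∑ d, (m c d : ℂ) * dec hM η d := by
        intro η
        set η' : IrrCharacter G := ⟨fun g => (η : G → ℂ) (τ g),
          H44.isIrrCharacter_comp_surjective τ.toMonoidHom τ.surjective η.2⟩ with hη'
        have h1 : ∑ s : G, (η : G → ℂ) (τ s) * conj (Φ c s) =
            (Nat.card G : ℂ) * (dec hM η' c : ℂ) := by
          simp only [Φ, map_sum, map_mul, Complex.conj_natCast, Finset.mul_sum]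
          rw [Finset.sum_comm]
          have hi : ∀ χ : IrrCharacter G, ∑ s : G, (η : G → ℂ) (τ s) *
              ((dec hM χ c : ℂ) * conj ((χ : G → ℂ) s)) =
              (Nat.card G : ℂ) * if η' = χ then (dec hM χ c : ℂ) else 0 := by
            intro χ
            have h := H26.classInner_irr η' χ
            rw [Cfsg.classInner, inv_mul_eq_iff_eq_mul₀
              (Nat.cast_ne_zero.2 Nat.card_pos.ne')] at h
            rw [Finset.sum_congr rfl fun s _ => show _ = (dec hM χ c : ℂ) *
              ((η' : G → ℂ) s * conj ((χ : G → ℂ) s)) by simp only [hη']; ring, ← Finset.mul_sum, h]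
            split_ifs <;> ring
          rw [Finset.sum_congr rfl fun χ _ => hi χ, ← Finset.mul_sum, Finset.sum_ite_eq]
          split_ifs with hmem
          · rfl
          · rw [dec_separated hM hb hχ₀ (by simpa using hmem) hd0, Nat.cast_zero]
        rw [h1, ← dec_spec hM, ← hm c η, ← hEc, trBar_red hM (hE c), trBar_red hM (hτE c)]
        congr 1
        simp only [trAt, mul_one, τE, H40.coeff_ofFun, hη']
        exact Fintype.sum_equiv τ.toEquiv _ _ fun x => by simp
      rw [← coeff_unique hM (a := fun η => ∑ d, (m c d : ℂ) * dec hM η d)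
        (m := fun d => (m c d : ℂ)) (fun _ => rfl) c, Finset.mul_sum]
      simp only [phi, Finset.sum_mul]
      rw [Finset.sum_comm]
      refine Finset.sum_congr rfl fun η _ => ?_
      rw [mul_left_comm, ← hin η, Finset.mul_sum]
      exact Finset.sum_congr rfl fun s _ => by ring

end Twist

section Count

variable {G : Type*} [Group G] [Fintype G] {p : ℕ} [Fact p.Prime] {M : Ideal Cfsg.AlgInt}

open scoped Classical in
/-- A section shifted along an automorphism of its centralizer contributes a non-negative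
amount. -/
theorem exists_section_twist (hM : Cfsg.IsPModular p M) {B : Set (IrrCharacter G)}
    (hB : Cfsg.IsPBlock M B) {x : G} (hx : ∃ k : ℕ, orderOf x = p ^ k) (K : Subgroup G)
    (hK : K = Subgroup.centralizer (Subgroup.zpowers x : Set G))
    (hK' : K = Subgroup.centralizer ({x} : Set G)) (τ : K ≃* K) :
    ∃ n : ℕ, ∑ s ∈ Finset.univ.filter (fun s : K => Cfsg.IsPRegular p s),
      ∑ χ ∈ Finset.univ.filter (· ∈ B), (χ : G → ℂ) (x * τ s) * conj ((χ : G → ℂ) (x * s)) =
        (Nat.card K : ℂ) * n := by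
  subst hK
  have : M.IsMaximal := hM.2.1
  haveI := Cfsg.Agent.H41.IsPModular.charP hM
  haveI := H43.D1.isAlgClosed_resField M
  haveI : FiniteDimensional (ResField M) (MonoidAlgebra (ResField M) (Subgroup.centralizer (Subgroup.zpowers x : Set G))) :=
    Module.Finite.equiv (MonoidAlgebra.coeffLinearEquiv (ResField M)).symm
  haveI := H22.AlgPoints.finite_point (ResField M) (B := MonoidAlgebra (ResField M) (Subgroup.centralizer (Subgroup.zpowers x : Set G)))
  haveI := Fintype.ofFinite (Point (MonoidAlgebra (ResField M) (Subgroup.centralizer (Subgroup.zpowers x : Set G))))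
  have hreg : ∀ s : (Subgroup.centralizer (Subgroup.zpowers x : Set G)), Cfsg.IsPRegular p (τ s) ↔ Cfsg.IsPRegular p s := fun s => by
    simp only [Cfsg.IsPRegular, MulEquiv.orderOf_eq]
  let θ : IrrCharacter G → (Subgroup.centralizer (Subgroup.zpowers x : Set G)) → ℂ := fun χ c => (χ : G → ℂ) (x * c)
  have hθcl : ∀ χ, Cfsg.IsClassFunction (Subgroup.centralizer (Subgroup.zpowers x : Set G)) (θ χ) := by
    intro χ c d
    have hd : Commute (d : G) x := H32.mem_centralizer_zpowers_iff.1 d.2
    show (χ : G → ℂ) (x * ((d : G) * (c : G) * (d : G)⁻¹)) = (χ : G → ℂ) (x * (c : G))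
    rw [← H26.irr_conj χ (x * (c : G)) (d : G)]
    refine congrArg (χ : G → ℂ) ?_
    rw [← mul_assoc (d : G) x, hd.eq]
    simp [mul_assoc]
  let Q : Set (IrrCharacter (Subgroup.centralizer (Subgroup.zpowers x : Set G))) → IrrCharacter G → ℂ := fun b χ =>
    ∑ s : (Subgroup.centralizer (Subgroup.zpowers x : Set G)), Cfsg.pRegularPart p (Cfsg.blockPart b (θ χ)) (τ s) * conj (θ χ s)
  have hvan : ∀ b, Cfsg.IsPBlock M b → ∀ (χ : IrrCharacter G),
      ¬ Cfsg.IsInducedBlock M (Subgroup.centralizer (Subgroup.zpowers x : Set G)) b (Cfsg.blockOf M (χ : G → ℂ)) → Q b χ = 0 := by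
    intro b hb χ hn
    refine Finset.sum_eq_zero fun s _ => ?_
    by_cases hs : Cfsg.IsPRegular p (τ s)
    swap
    · simp [Cfsg.pRegularPart, hs]
    have main : ∀ (L : Subgroup G), L = Subgroup.centralizer ({x} : Set G) →
        ∀ (b : Set (IrrCharacter L)), Cfsg.IsPBlock M b →
        ¬ Cfsg.IsInducedBlock M L b (Cfsg.blockOf M (χ : G → ℂ)) →
        ∀ y : L, ¬ p ∣ orderOf y →
        Cfsg.blockPart b (fun c : L => (χ : G → ℂ) (x * (c : G))) y = 0 := by
      intro L hL
      subst hL
      exact fun b hb hn y hy => Cfsg.Agent.S0923.result p M hM x hx _ ⟨χ, rfl⟩ χ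
        (H41.mem_blockOf_self χ) b hb hn y hy
    simp [Cfsg.pRegularPart, hs, θ, main (Subgroup.centralizer (Subgroup.zpowers x : Set G)) hK' b hb hn (τ s) hs]
  have htot : ∀ b, Cfsg.IsPBlock M b →
      ∃ n : ℕ, ∑ χ : IrrCharacter G, Q b χ = (Nat.card (Subgroup.centralizer (Subgroup.zpowers x : Set G)) : ℂ) * n := by
    intro b hb
    obtain ⟨n, hn⟩ := exists_twisted_norm (G := (Subgroup.centralizer (Subgroup.zpowers x : Set G))) hM τ hb
    refine ⟨n, ?_⟩
    rw [← hn]
    have hW := H32.weakOrthogonal_of_isPBlock (C := (Subgroup.centralizer (Subgroup.zpowers x : Set G))) hM hb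
    simp only [Q]
    rw [Finset.sum_comm, Finset.sum_filter]
    refine Finset.sum_congr rfl fun s _ => ?_
    by_cases hs : Cfsg.IsPRegular p s
    swap
    · rw [if_neg (show ¬¬ p ∣ orderOf s from hs)]
      simp [Cfsg.pRegularPart, mt (hreg s).1 hs]
    have hs' := (hreg s).2 hs
    rw [if_pos (show ¬ p ∣ orderOf s from hs)]
    have e : ∀ χ : IrrCharacter G, Cfsg.pRegularPart p (Cfsg.blockPart b (θ χ)) (τ s) *
        conj (θ χ s) = ∑ c : (Subgroup.centralizer (Subgroup.zpowers x : Set G)), H32.projKernel p b (τ s) c * (θ χ c * conj (θ χ s)) := fun χ => by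
      rw [H32.pRegularPart_blockPart, Matrix.mulVec, dotProduct, Finset.sum_mul]
      exact Finset.sum_congr rfl fun c _ => by ring
    simp only [e]
    rw [Finset.sum_comm]
    have hd : ∀ c : (Subgroup.centralizer (Subgroup.zpowers x : Set G)), ∑ χ : IrrCharacter G, H32.projKernel p b (τ s) c *
        (θ χ c * conj (θ χ s)) = if IsConj c s then H32.projKernel p b (τ s) s *
          (Nat.card (Subgroup.centralizer ({s} : Set (Subgroup.centralizer (Subgroup.zpowers x : Set G)))) : ℂ) else 0 := by
      intro c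
      rw [← Finset.mul_sum]
      by_cases hc : Cfsg.IsPRegular p c
      · simp only [θ]
        rw [H26.column_orthogonality, H26.classIndicator, H32.card_centralizer_mul hx hs]
        simp only [mul_ite, mul_one, mul_zero]
        rw [if_congr (H32.isConj_mul_iff hx hc hs) rfl rfl]
        split_ifs with h
        · rw [H32.projKernel_conj_right b h]
        · rfl
      · rw [H32.projKernel_eq_zero hW _ hc, zero_mul, if_neg]
        intro h
        obtain ⟨k, hk⟩ := isConj_iff.1 h
        apply hc
        have : orderOf s = orderOf c := by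
          rw [← hk, ← MulAut.conj_apply]; exact (MulAut.conj k).orderOf_eq c
        unfold Cfsg.IsPRegular at hs ⊢
        rwa [← this]
    simp only [hd, ← Finset.sum_filter, Finset.sum_const, nsmul_eq_mul]
    have h := H26.card_class_mul_card_centralizer s
    simp only [ConjClasses.mk_eq_mk_iff_isConj] at h
    rw [mul_left_comm, ← Nat.cast_mul, h]
    simp only [H32.projKernel, Matrix.of_apply, if_pos hs']
    rw [mul_comm, ← mul_assoc, mul_inv_cancel₀ (Nat.cast_ne_zero.2 Nat.card_pos.ne'), one_mul]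
  set 𝔅 := Finset.univ.image (fun ξ : IrrCharacter (Subgroup.centralizer (Subgroup.zpowers x : Set G)) => Cfsg.blockOf M (ξ : (Subgroup.centralizer (Subgroup.zpowers x : Set G)) → ℂ))
  have h𝔅 : ∀ b, b ∈ 𝔅 ↔ Cfsg.IsPBlock M b := fun b => by
    simp only [𝔅, Finset.mem_image, Finset.mem_univ, true_and, Cfsg.IsPBlock, eq_comm]
  have hmain : ∑ s ∈ Finset.univ.filter (fun s : (Subgroup.centralizer (Subgroup.zpowers x : Set G)) => Cfsg.IsPRegular p s),
      ∑ χ ∈ Finset.univ.filter (· ∈ B), (χ : G → ℂ) (x * τ s) * conj ((χ : G → ℂ) (x * s)) =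
      ∑ χ ∈ Finset.univ.filter (· ∈ B), ∑ b ∈ 𝔅, Q b χ := by
    rw [Finset.sum_comm]
    refine Finset.sum_congr rfl fun χ _ => ?_
    simp only [Q]
    rw [Finset.sum_comm, Finset.sum_filter]
    refine Finset.sum_congr rfl fun s _ => ?_
    split_ifs with hs
    · have := H32.sum_blockPart_blocks M (hθcl χ) (τ s)
      simp only [Cfsg.pRegularPart, if_pos ((hreg s).2 hs)]
      rw [← Finset.sum_mul, ← this]
    · simp [Cfsg.pRegularPart, mt (hreg s).1 hs]
  rw [hmain, Finset.sum_comm]
  have hone : ∀ b ∈ 𝔅, ∃ n : ℕ,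
      ∑ χ ∈ Finset.univ.filter (· ∈ B), Q b χ = (Nat.card (Subgroup.centralizer (Subgroup.zpowers x : Set G)) : ℂ) * n := by
    intro b hb
    by_cases hind : Cfsg.IsInducedBlock M (Subgroup.centralizer (Subgroup.zpowers x : Set G)) b B
    · obtain ⟨n, hn⟩ := htot b hind.1
      refine ⟨n, ?_⟩
      rw [← hn]
      refine Finset.sum_subset (Finset.subset_univ _) fun χ _ hχ => hvan b hind.1 χ fun hi => hχ ?_
      rw [Finset.mem_filter]
      exact ⟨Finset.mem_univ _, H32.isInducedBlock_unique hind hi ▸ H41.mem_blockOf_self χ⟩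
    · refine ⟨0, ?_⟩
      rw [Nat.cast_zero, mul_zero]
      refine Finset.sum_eq_zero fun χ hχ => hvan b ((h𝔅 b).1 hb) χ fun hi => hind ?_
      rwa [H41.eq_blockOf_of_mem hB (Finset.mem_filter.1 hχ).2]
  choose! n hn using hone
  exact ⟨∑ b ∈ 𝔅, n b, by rw [Finset.sum_congr rfl hn, Nat.cast_sum, Finset.mul_sum]⟩

open scoped Classical in
set_option maxHeartbeats 1000000 in
/-- The number of members fixed by a twist prime to `p`-regular elements is at least the rank. -/
theorem blockRank_le_fixed (hM : Cfsg.IsPModular p M) {B : Set (IrrCharacter G)}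
    (hB : Cfsg.IsPBlock M B) {k : ℕ} (hk : k.Coprime (Nat.card G))
    (hk1 : k ≡ 1 [MOD Nat.card G / p ^ (Nat.card G).factorization p]) :
    Cfsg.blockRank p B ≤ Nat.card {χ : IrrCharacter G //
      χ ∈ B ∧ ∀ g : G, (χ : G → ℂ) (g ^ k) = (χ : G → ℂ) g} := by
  haveI : M.IsMaximal := hM.2.1
  have hsk : ∀ s : G, ¬ p ∣ orderOf s → s ^ k = s := by
    intro s hs
    have hd : orderOf s ∣ Nat.card G / p ^ (Nat.card G).factorization p := by
      refine (Nat.Coprime.dvd_mul_left (m := p ^ (Nat.card G).factorization p)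
        (((Nat.Prime.coprime_iff_not_dvd Fact.out).2 hs).symm.pow_right _)).1 ?_
      rw [Nat.ordProj_mul_ordCompl_eq_self]
      exact orderOf_dvd_natCard s
    have := pow_eq_pow_iff_modEq.2 ((hk1.of_dvd hd) : k ≡ 1 [MOD orderOf s])
    rwa [pow_one] at this
  let T := Finset.univ.filter (fun χ : IrrCharacter G => χ ∈ B)
  let f : G → ℂ := fun g => ∑ χ ∈ T, (χ : G → ℂ) (g ^ k) * conj ((χ : G → ℂ) g)
  have hf : Cfsg.IsClassFunction G f := fun g h => by
    simp only [f, conj_pow, H26.irr_conj]
  have hG : (Nat.card G : ℂ) ≠ 0 := Nat.cast_ne_zero.2 Nat.card_pos.ne'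
  have h1 : ∑ g, f g = (Nat.card G : ℂ) * (Nat.card {χ : IrrCharacter G //
      χ ∈ B ∧ ∀ g : G, (χ : G → ℂ) (g ^ k) = (χ : G → ℂ) g} : ℂ) := by
    simp only [f]
    rw [Finset.sum_comm]
    have hi : ∀ χ : IrrCharacter G, ∑ g : G, (χ : G → ℂ) (g ^ k) * conj ((χ : G → ℂ) g) =
        (Nat.card G : ℂ) * if ∀ g : G, (χ : G → ℂ) (g ^ k) = (χ : G → ℂ) g then 1 else 0 := by
      intro χ
      have h := H26.classInner_irr
        (⟨fun g => (χ : G → ℂ) (g ^ k), H45.isIrrCharacter_pow χ hk⟩ : IrrCharacter G) χ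
      rw [Cfsg.classInner, inv_mul_eq_iff_eq_mul₀ hG] at h
      rw [h]
      congr 1
      refine if_congr ⟨fun e g => congrFun (congrArg Subtype.val e) g,
        fun e => Subtype.ext (funext e)⟩ rfl rfl
    rw [Finset.sum_congr rfl fun χ _ => hi χ, ← Finset.mul_sum, Finset.sum_boole,
      Finset.filter_filter]
    congr 2
    rw [Nat.card_eq_fintype_card, Fintype.card_subtype]
  -- representatives of the classes of `p`-elements
  haveI := Fintype.ofFinite (Quotient (IsConj.setoid G))
  let XC : Finset (Quotient (IsConj.setoid G)) := Finset.univ.filter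
    (fun C => ∃ j : ℕ, orderOf C.out = p ^ j)
  let X : Finset G := XC.image Quotient.out
  have hX : ∀ x ∈ X, ∃ j : ℕ, orderOf x = p ^ j := fun x hx => by
    obtain ⟨C, hC, rfl⟩ := Finset.mem_image.1 hx
    exact (Finset.mem_filter.1 hC).2
  have hord : ∀ g h : G, IsConj g h → orderOf g = orderOf h := fun g h e => by
    obtain ⟨c, rfl⟩ := isConj_iff.1 e
    exact ((MulAut.conj c).orderOf_eq g).symm
  have hout : ∀ g : G, IsConj g (Quotient.out (Quotient.mk (IsConj.setoid G) g)) := fun g =>
    IsConj.symm (Quotient.exact (Quotient.out_eq (Quotient.mk (IsConj.setoid G) g)))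
  have hXrep : ∀ g : G, (∃ j : ℕ, orderOf g = p ^ j) → ∃! x, x ∈ X ∧ IsConj g x := by
    intro g hg
    refine ⟨Quotient.out (Quotient.mk (IsConj.setoid G) g), ⟨Finset.mem_image.2
      ⟨Quotient.mk (IsConj.setoid G) g, Finset.mem_filter.2 ⟨Finset.mem_univ _, ?_⟩, rfl⟩,
        hout g⟩, ?_⟩
    · rwa [← hord _ _ (hout g)]
    · rintro y ⟨hy, hgy⟩
      obtain ⟨C, -, rfl⟩ := Finset.mem_image.1 hy
      congr 1
      rw [Quotient.sound (s := IsConj.setoid G) hgy]
      exact (Quotient.out_eq C).symm
  rw [H32.sum_eq_sum_sections hX hXrep hf] at h1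
  have hterm : ∀ x ∈ X, ∃ n : ℕ, (x = 1 → Cfsg.blockRank p B ≤ n) ∧
      ∑ s ∈ Finset.univ.filter
        (fun s : Subgroup.centralizer ({x} : Set G) => Cfsg.IsPRegular p s), f (x * s) =
      (Nat.card (Subgroup.centralizer ({x} : Set G)) : ℂ) * n := by
    intro x hx
    set K := Subgroup.centralizer ({x} : Set G) with hK
    by_cases hx1 : x = 1
    · refine ⟨Cfsg.blockRank p B, fun _ => le_rfl, ?_⟩
      have hKtop : K = ⊤ := by
        rw [hK, hx1]
        exact top_le_iff.1 fun y _ => by simp [Subgroup.mem_centralizer_singleton_iff]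
      have hW := H32.weakOrthogonal_of_isPBlock (C := G) hM hB
      rw [hKtop, Subgroup.card_top, ← H32.trace_projKernel hW, Finset.mul_sum]
      refine Eq.trans ?_ (Finset.sum_congr rfl fun s _ => ?_ : ∑ s : G,
        (if Cfsg.IsPRegular p s then f s else 0) = _)
      · rw [← Finset.sum_filter]
        refine Finset.sum_bij (fun s _ => (s : G)) (fun s hs => ?_) (fun _ _ _ _ h => Subtype.ext h)
          (fun s hs => ⟨⟨s, hKtop ▸ Subgroup.mem_top s⟩, ?_, rfl⟩) fun s _ => by rw [hx1, one_mul]
        · exact Finset.mem_filter.2 ⟨Finset.mem_univ _,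
            by simpa [Cfsg.IsPRegular, Subgroup.orderOf_coe] using (Finset.mem_filter.1 hs).2⟩
        · exact Finset.mem_filter.2 ⟨Finset.mem_univ _,
            by simpa [Cfsg.IsPRegular, Subgroup.orderOf_mk] using (Finset.mem_filter.1 hs).2⟩
      · simp only [H32.projKernel, Matrix.of_apply]
        split_ifs with hs
        · rw [mul_inv_cancel_left₀ hG]
          simp only [f, hsk s hs]
          rfl
        · rw [mul_zero]
    have hzK : K = Subgroup.centralizer (Subgroup.zpowers x : Set G) := by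
      ext z
      rw [hK, H32.mem_centralizer_zpowers_iff, Subgroup.mem_centralizer_singleton_iff]
      exact ⟨fun h => h, fun h => h.eq⟩
    have hcomm : ∀ s : K, Commute x (s : G) := fun s =>
      (Subgroup.mem_centralizer_singleton_iff.1 s.2).symm
    have hfx : ∀ s : K, Cfsg.IsPRegular p s → f (x * s) =
        ∑ χ ∈ T, (χ : G → ℂ) (x ^ k * s) * conj ((χ : G → ℂ) (x * s)) := fun s hs => by
      simp only [f, (hcomm s).mul_pow, hsk (s : G) (by rw [Subgroup.orderOf_coe]; exact hs)]
    rw [Finset.sum_congr rfl fun s hs => hfx s (Finset.mem_filter.1 hs).2]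
    obtain ⟨j, hj⟩ := hX x hx
    by_cases hcj : IsConj x (x ^ k)
    · obtain ⟨h, hh⟩ := isConj_iff.1 hcj
      have hxk : orderOf (x ^ k) = orderOf x := (hord _ _ hcj).symm
      have hzp : Subgroup.zpowers (x ^ k) = Subgroup.zpowers x := by
        refine Subgroup.eq_of_le_of_card_ge
          (Subgroup.zpowers_le.2 (Subgroup.npow_mem_zpowers x k)) ?_
        rw [Nat.card_zpowers, Nat.card_zpowers, hxk]
      have hnorm : ∀ y : G, y ∈ K ↔ h⁻¹ * y * h ∈ K := by
        intro y
        have : y ∈ K ↔ Commute y (x ^ k) := by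
          rw [hzK, ← hzp, H32.mem_centralizer_zpowers_iff]
        rw [this, hK, Subgroup.mem_centralizer_singleton_iff, ← hh]
        constructor
        · intro e
          calc h⁻¹ * y * h * x = h⁻¹ * (y * (h * x * h⁻¹)) * h := by group
            _ = h⁻¹ * (h * x * h⁻¹ * y) * h := by rw [e.eq]
            _ = x * (h⁻¹ * y * h) := by group
        · intro e
          show y * (h * x * h⁻¹) = h * x * h⁻¹ * y
          calc y * (h * x * h⁻¹) = h * (h⁻¹ * y * h * x) * h⁻¹ := by group
            _ = h * (x * (h⁻¹ * y * h)) * h⁻¹ := by rw [e]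
            _ = h * x * h⁻¹ * y := by group
      let τ : K ≃* K :=
        { toFun := fun s => ⟨h⁻¹ * s * h, (hnorm s).1 s.2⟩
          invFun := fun s => ⟨h * s * h⁻¹, (hnorm _).2 (by
            rw [show h⁻¹ * (h * (s : G) * h⁻¹) * h = s by group]; exact s.2)⟩
          left_inv := fun s => Subtype.ext (by simp [mul_assoc])
          right_inv := fun s => Subtype.ext (by simp [mul_assoc])
          map_mul' := fun a b => Subtype.ext (by simp [mul_assoc]) }
      obtain ⟨n, hn⟩ := exists_section_twist hM hB (hX x hx) K hzK rfl τ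
      refine ⟨n, fun e => absurd e hx1, ?_⟩
      rw [← hn]
      refine Finset.sum_congr rfl fun s _ => Finset.sum_congr rfl fun χ _ => ?_
      congr 1
      rw [← H26.irr_conj χ (x * (τ s : G)) h, ← hh]
      refine congrArg (χ : G → ℂ) ?_
      show h * x * h⁻¹ * (s : G) = h * (x * (h⁻¹ * (s : G) * h)) * h⁻¹
      group
    · refine ⟨0, fun e => absurd e hx1, ?_⟩
      rw [Nat.cast_zero, mul_zero]
      refine Finset.sum_eq_zero fun s hs => ?_
      have hs' : ¬ p ∣ orderOf (s : G) := by
        rw [Subgroup.orderOf_coe]; exact (Finset.mem_filter.1 hs).2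
      have hxk : ∃ j', orderOf (x ^ k) = p ^ j' := by
        obtain ⟨i, -, hi⟩ := (Nat.dvd_prime_pow (Fact.out : p.Prime)).1
          (hj ▸ orderOf_pow_dvd k : orderOf (x ^ k) ∣ p ^ j)
        exact ⟨i, hi⟩
      obtain ⟨j', hj'⟩ := hxk
      exact H40.sum_block_mul_conj_eq_zero_of_section hM hB
        (H40.isPPart_mul ((hcomm s).pow_left k) hj' hs') (H40.isPPart_mul (hcomm s) hj hs')
        fun e => hcj e.symm
  choose! n hn1 hn using hterm
  rw [Finset.sum_congr rfl fun x hx => by rw [hn x hx, ← mul_assoc,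
    div_mul_cancel₀ _ (Nat.cast_ne_zero.2 Nat.card_pos.ne')], ← Finset.mul_sum,
    mul_right_inj' hG, ← Nat.cast_sum, Nat.cast_inj] at h1
  rw [← h1]
  obtain ⟨x, ⟨hx, hx1⟩, -⟩ := hXrep 1 ⟨0, by simp⟩
  obtain rfl : x = 1 := isConj_one_left.1 hx1.symm
  exact (hn1 1 hx rfl).trans (Finset.single_le_sum (fun _ _ => Nat.zero_le _) hx)

end Count

end Cfsg.Agent.H41.BrauerChar
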