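import Cfsg.Agent.H41.RegularInner
import Cfsg.Agent.H40.PPart
import Cfsg.Agent.H42.Central
import Cfsg.Agent.H42.RegularPart

/-!
# Blocks and a central involution
-/

set_option autoImplicit false

namespace Cfsg.Agent.H41

open Cfsg
open scoped ComplexConjugate

variable {G : Type*} [Group G] [Finite G] {M : Ideal AlgInt}

/-- A central involution acts on an irreducible character by a sign. -/
lemma exists_sign_central_involution (χ : IrrCharacter G) {z : G} (hz : z ∈ Subgroup.center G)
    (hzz : z * z = 1) :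
    ∃ s : ℂ, (s = 1 ∨ s = -1) ∧ ∀ g : G, (χ : G → ℂ) (z * g) = s * (χ : G → ℂ) g := by
  refine ⟨(χ : G → ℂ) z / (χ : G → ℂ) 1, ?_, H42.irr_central_mul χ hz⟩
  have h := H42.irr_central_mul χ hz z
  rw [hzz] at h
  refine sq_eq_one_iff.1 ?_
  have h1 := H26.irr_one_ne_zero χ
  field_simp at h ⊢
  linear_combination -h

/-- A regular element times a central involution is singular. -/
lemma dvd_orderOf_central_mul [Fact (Nat.Prime 2)] {z g : G} (hz : z ∈ Subgroup.center G)
    (hz2 : orderOf z = 2) (hg : ¬ 2 ∣ orderOf g) : 2 ∣ orderOf (z * g) := by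
  by_contra h
  have hp := H40.isPPart_mul (p := 2) (j := 1) ((Subgroup.mem_center_iff.1 hz g).symm)
    (by rw [hz2, pow_one]) hg
  have h1 := (H40.regular_iff_pPart_eq_one hp).1 h
  rw [h1, orderOf_one] at hz2
  omega

/-- The restrictions to the regular elements of the members of a block on which a central
involution has a given sign span all such restrictions. -/
theorem regRes_mem_span_of_sign [Fact (Nat.Prime 2)] (hM : IsPModular 2 M)
    {B : Set (IrrCharacter G)} (hB : IsPBlock M B) {z : G} (hz : z ∈ Subgroup.center G)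
    (hz2 : orderOf z = 2) {s : ℂ} (hs : s = 1 ∨ s = -1) {χ : IrrCharacter G} (hχ : χ ∈ B) :
    H42.regRes 2 (χ : G → ℂ) ∈ Submodule.span ℂ
      ((fun ψ : IrrCharacter G => H42.regRes 2 (ψ : G → ℂ)) ''
        {ψ | ψ ∈ B ∧ ∀ g : G, (ψ : G → ℂ) (z * g) = s * (ψ : G → ℂ) g}) := by
  classical
  haveI := hM.2.1
  haveI := Fintype.ofFinite G
  have hzz : z * z = 1 := by
    have h := pow_orderOf_eq_one z
    rwa [hz2, pow_two] at h
  have hs2 : s * s = 1 := by rcases hs with rfl | rfl <;> norm_num
  let E : G → ℂ := fun g => if ¬ 2 ∣ orderOf g then (χ : G → ℂ) g else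
    if ¬ 2 ∣ orderOf (z * g) then s * (χ : G → ℂ) (z * g) else 0
  have hconj : ∀ g x : G, z * (x * g * x⁻¹) = x * (z * g) * x⁻¹ := fun g x => by
    rw [← mul_assoc, ← mul_assoc, ← Subgroup.mem_center_iff.1 hz x, ← mul_assoc]
  have hE : IsClassFunction G E := fun g x => by
    have ho : ∀ w : G, orderOf (x * w * x⁻¹) = orderOf w := fun w => (MulAut.conj x).orderOf_eq w
    simp only [E, hconj, ho, H26.irr_conj]
  have hEz : ∀ g, E (z * g) = s * E g := by
    intro g
    simp only [E, ← mul_assoc, hzz, one_mul]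
    by_cases h1 : 2 ∣ orderOf g
    · by_cases h2 : 2 ∣ orderOf (z * g)
      · simp [h1, h2]
      · simp [h1, h2, ← mul_assoc, hs2]
    · have h2 := dvd_orderOf_central_mul hz hz2 h1
      simp [h1, h2]
  have hcoef : ∀ ψ : IrrCharacter G,
      ψ ∉ {ψ : IrrCharacter G | ψ ∈ B ∧ ∀ g : G, (ψ : G → ℂ) (z * g) = s * (ψ : G → ℂ) g} →
      classInner E (ψ : G → ℂ) = 0 := by
    intro ψ hψ
    obtain ⟨t, ht, htz⟩ := exists_sign_central_involution ψ hz hzz
    by_cases hst : t = s
    · subst hst
      have hψB : ψ ∉ B := fun h => hψ ⟨h, htz⟩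
      have h0 := sum_regular_mul_conj_eq_zero hM (χ := χ) (ψ := ψ)
        (fun h => hψB ((mem_iff_of_sameBlock hB h).1 hχ))
      have htt : t * conj t = 1 := by rcases ht with rfl | rfl <;> simp
      rw [classInner]
      refine mul_eq_zero_of_right _ ?_
      rw [← Finset.sum_filter_add_sum_filter_not Finset.univ (fun g : G => ¬ 2 ∣ orderOf g)]
      have e1 : ∑ g ∈ Finset.univ.filter (fun g : G => ¬ 2 ∣ orderOf g), E g * conj ((ψ : G → ℂ) g) = 0 := by
        refine Eq.trans (Finset.sum_congr rfl fun g hg => ?_) h0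
        simp only [E, if_pos (Finset.mem_filter.1 hg).2]
      rw [e1, zero_add]
      have e2 : ∑ g ∈ Finset.univ.filter (fun g : G => ¬ ¬ 2 ∣ orderOf g),
          E g * conj ((ψ : G → ℂ) g) =
          ∑ g ∈ (Finset.univ.filter (fun g : G => ¬ 2 ∣ orderOf g)).map
            (Equiv.mulLeft z).toEmbedding, E g * conj ((ψ : G → ℂ) g) := by
        refine (Finset.sum_subset ?_ ?_).symm
        · intro g hg
          obtain ⟨w, hw, rfl⟩ := Finset.mem_map.1 hg
          exact Finset.mem_filter.2 ⟨Finset.mem_univ _,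
            fun h => h (dvd_orderOf_central_mul hz hz2 (Finset.mem_filter.1 hw).2)⟩
        · intro g hg hg'
          have h2 : 2 ∣ orderOf (z * g) := by
            by_contra h2
            refine hg' (Finset.mem_map.2 ⟨z * g, Finset.mem_filter.2 ⟨Finset.mem_univ _, h2⟩, ?_⟩)
            simp [← mul_assoc, hzz]
          simp only [E, if_neg (Finset.mem_filter.1 hg).2, h2, not_true, if_false, zero_mul]
      rw [e2, Finset.sum_map, ← h0]
      refine Finset.sum_congr rfl fun g hg => ?_
      simp only [Equiv.toEmbedding_apply, Equiv.coe_mulLeft, hEz, htz, map_mul]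
      simp only [E, if_pos (Finset.mem_filter.1 hg).2]
      linear_combination ((χ : G → ℂ) g * conj ((ψ : G → ℂ) g)) * htt
    · rw [classInner]
      refine mul_eq_zero_of_right _ ?_
      have h := Fintype.sum_equiv (Equiv.mulLeft z) (fun g => E (z * g) * conj ((ψ : G → ℂ) (z * g)))
        (fun g => E g * conj ((ψ : G → ℂ) g)) fun g => rfl
      simp only [hEz, htz, map_mul] at h
      have hneg : s * conj t = -1 := by
        rcases hs with rfl | rfl <;> rcases ht with rfl | rfl <;> simp_all
      have e : ∀ g, s * E g * (conj t * conj ((ψ : G → ℂ) g)) =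
          -(E g * conj ((ψ : G → ℂ) g)) := fun g => by
        linear_combination (E g * conj ((ψ : G → ℂ) g)) * hneg
      rw [Finset.sum_congr rfl fun g _ => e g, Finset.sum_neg_distrib] at h
      exact CharZero.neg_eq_self_iff.1 h
  have hexp := H26.class_function_expansion E hE
  have hres : H42.regRes 2 (χ : G → ℂ) =
      ∑ ψ : IrrCharacter G, classInner E (ψ : G → ℂ) • H42.regRes 2 (ψ : G → ℂ) := by
    funext g
    rw [Finset.sum_apply]
    by_cases hg : 2 ∣ orderOf g
    · simp [H42.regRes, hg]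
    · simp only [H42.regRes, if_neg hg, Pi.smul_apply]
      have := congrFun hexp g
      simp only [E, if_pos hg, Finset.sum_apply, Pi.smul_apply] at this
      exact this
  rw [hres]
  refine Submodule.sum_mem _ fun ψ _ => ?_
  by_cases hψ : ψ ∈ {ψ : IrrCharacter G | ψ ∈ B ∧ ∀ g : G, (ψ : G → ℂ) (z * g) = s * (ψ : G → ℂ) g}
  · exact Submodule.smul_mem _ _ (Submodule.subset_span ⟨ψ, hψ, rfl⟩)
  · rw [hcoef ψ hψ, zero_smul]
    exact Submodule.zero_mem _

end Cfsg.Agent.H41
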