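import Cfsg.Agent.H41.PLengthOneRestrict
import Cfsg.Agent.H41.PrincipalSection

/-!
# The linear members below the common kernel, and `p`-length one
-/

set_option autoImplicit false
set_option linter.unusedSectionVars false

open scoped ComplexConjugate

namespace Cfsg.Agent.H41.PLengthOne

open Cfsg (IrrCharacter)
open H43 (restrMult)

universe u

variable {G : Type u} [Group G] [Fintype G] {p : ℕ} [hp : Fact p.Prime] {M : Ideal Cfsg.AlgInt}
  {P N : Subgroup G}

/-- The centralizer of `P` lies in the kernel of every member trivial on `P`. -/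
theorem Data.centralizer_le_core (D : Data p M P N) : Subgroup.centralizer (P : Set G) ≤ core M P := by
  classical
  intro c hc
  refine mem_core.2 fun χ hχ => ?_
  obtain ⟨hB, hker⟩ := mem_vset.1 hχ
  haveI := D.hM.2.1
  haveI := Fintype.ofFinite N
  obtain ⟨S, hS⟩ := D.hP
  have hCN : Subgroup.centralizer (P : Set G) ≤ N := D.hN ▸ Subgroup.centralizer_le_normalizer _
  haveI : (P.subgroupOf N).Normal := ⟨fun x hx y => Subgroup.mem_subgroupOf.2
    (D.conj_mem y.2 (Subgroup.mem_subgroupOf.1 hx))⟩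
  haveI := Fintype.ofFinite (N ⧸ P.subgroupOf N)
  set ψ : IrrCharacter N := ⟨_, D.hirr χ hB⟩
  obtain ⟨η, hη⟩ := H44.exists_eq_inflate (P.subgroupOf N) ψ fun u hu =>
    H44.mem_kerOf.2 (H44.mem_kerOf.1 (hker (Subgroup.mem_subgroupOf.1 hu)))
  have hq : ¬ p ∣ Nat.card (N ⧸ P.subgroupOf N) := by
    intro h
    refine S.not_dvd_index (h.trans ?_)
    rw [hS, ← Subgroup.index_eq_card]
    exact Subgroup.relIndex_dvd_index_of_le D.le
  have hd : Cfsg.charDegree (η : (N ⧸ P.subgroupOf N) → ℂ) = Cfsg.charDegree (χ : G → ℂ) := by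
    have h := congrArg (fun f : IrrCharacter N => (f : N → ℂ) 1) hη
    simp only [H44.inflate_apply] at h
    unfold Cfsg.charDegree
    rw [show (χ : G → ℂ) 1 = (ψ : N → ℂ) 1 from rfl, ← h]
    rfl
  have hdp : ¬ p ∣ Cfsg.charDegree (χ : G → ℂ) := fun h =>
    hq ((hd ▸ h).trans (H43.irr_charDegree_dvd η))
  set C := ((Subgroup.centralizer (P : Set G)).subgroupOf N).map
    (QuotientGroup.mk' (P.subgroupOf N)) with hC
  haveI : ((Subgroup.centralizer (P : Set G)).subgroupOf N).Normal := by
    refine ⟨fun x hx y => Subgroup.mem_subgroupOf.2 (Subgroup.mem_centralizer_iff.2 fun u hu => ?_)⟩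
    have hu' : (y : G)⁻¹ * u * ((y : G)⁻¹)⁻¹ ∈ P := D.conj_mem (N.inv_mem y.2) hu
    have h := Subgroup.mem_centralizer_iff.1 (Subgroup.mem_subgroupOf.1 hx) _ hu'
    simp only [Subgroup.coe_mul, InvMemClass.coe_inv]
    have h2 := congrArg (fun z => (y : G) * z * (y : G)⁻¹) h
    simpa [mul_assoc] using h2
  haveI : C.Normal := Subgroup.Normal.map inferInstance _ (QuotientGroup.mk'_surjective _)
  haveI := Fintype.ofFinite C
  by_cases hle : C ≤ H44.kerOf η
  · have hmem : QuotientGroup.mk' (P.subgroupOf N) ⟨c, hCN hc⟩ ∈ C :=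
      Subgroup.mem_map_of_mem _ (Subgroup.mem_subgroupOf.2 hc)
    have h := H44.mem_kerOf.1 (hle hmem)
    rw [H44.mem_kerOf]
    have h1 := congrArg (fun f : IrrCharacter N => (f : N → ℂ) ⟨c, hCN hc⟩) hη
    have h2 := congrArg (fun f : IrrCharacter N => (f : N → ℂ) 1) hη
    simp only [H44.inflate_apply] at h1 h2
    exact h1.symm.trans (h.trans h2)
  exfalso
  have h0 := sum_mul_eq_zero C η hle 1
  simp only [one_mul] at h0
  -- all these values are congruent to the degree
  have hcong : ∀ x : C, Cfsg.MemLocalIdeal M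
      ((η : (N ⧸ P.subgroupOf N) → ℂ) (x : N ⧸ P.subgroupOf N) - (χ : G → ℂ) 1) := by
    rintro ⟨_, z, hz, rfl⟩
    obtain ⟨x, y, hxy, hcomm, ⟨k, hk⟩, hy⟩ := H40.exists_isPPart p (z : G)
    obtain ⟨l, hl1, -⟩ := H40.exists_pPart_exponent p G
    have hxz : x = (z : G) ^ l := (hl1 _ x ⟨y, hxy, hcomm, ⟨k, hk⟩, hy⟩).symm
    have hxC : x ∈ Subgroup.centralizer (P : Set G) :=
      hxz ▸ Subgroup.pow_mem _ (Subgroup.mem_subgroupOf.1 hz) l
    have hyC : y ∈ Subgroup.centralizer (P : Set G) := by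
      have : y = x⁻¹ * (z : G) := by rw [← hxy, inv_mul_cancel_left]
      rw [this]
      exact mul_mem (inv_mem hxC) (Subgroup.mem_subgroupOf.1 hz)
    have hxP : x ∈ P := D.mem_of_pElement (hCN hxC) ⟨k, hk⟩
    have h1 := congrArg (fun f : IrrCharacter N => (f : N → ℂ) z) hη
    simp only [H44.inflate_apply] at h1
    show Cfsg.MemLocalIdeal M ((η : (N ⧸ P.subgroupOf N) → ℂ) (z : N ⧸ P.subgroupOf N) - _)
    rw [h1]
    show Cfsg.MemLocalIdeal M ((χ : G → ℂ) (z : G) - _)
    rw [← hxy, hcomm.eq, H44.irr_mul_of_mem_kerOf (hker hxP)]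
    -- `y` is regular and centralizes `P`
    have hcong' := hB y
    set K := (Subgroup.centralizer ({y} : Set G)).index with hK
    have hKp : ¬ p ∣ K := fun h => S.not_dvd_index (h.trans (Subgroup.index_dvd_of_le (by
      rw [hS]
      intro u hu
      exact Subgroup.mem_centralizer_singleton_iff.2 (Subgroup.mem_centralizer_iff.1 hyC u hu))))
    have e : (χ : G → ℂ) y - (χ : G → ℂ) 1 =
        -((χ : G → ℂ) 1 / (K : ℂ)) *
          (Cfsg.centralChar (fun _ : G => (1 : ℂ)) y - Cfsg.centralChar (χ : G → ℂ) y) := by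
      unfold Cfsg.centralChar
      rw [← hK]
      have hK0 : (K : ℂ) ≠ 0 := Nat.cast_ne_zero.2 fun h => hKp (by rw [h]; exact dvd_zero p)
      field_simp [H26.irr_one_ne_zero χ]
      ring
    rw [e]
    refine H40.memLocalIdeal_mul_left ?_ hcong'
    refine neg_mem ⟨⟨_, H42.isIntegral_value (H26.irr_isCharacter χ) 1⟩, (K : Cfsg.AlgInt),
      DegWeighted.natCast_notMem' D.hM hKp, by simp⟩
  have hsum : Cfsg.MemLocalIdeal M (∑ x : C, ((η : (N ⧸ P.subgroupOf N) → ℂ)
      (x : N ⧸ P.subgroupOf N) - (χ : G → ℂ) 1)) := by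
    rw [H41.memLocalIdeal_iff_res]
    refine ⟨sum_mem fun x _ => H41.memLocalRing_of_memLocalIdeal (hcong x), ?_⟩
    have : (⟨_, sum_mem fun (x : C) (_ : x ∈ Finset.univ) =>
        H41.memLocalRing_of_memLocalIdeal (hcong x)⟩ : H41.localRing M) =
        ∑ x : C, ⟨_, H41.memLocalRing_of_memLocalIdeal (hcong x)⟩ :=
      Subtype.ext (by push_cast; rfl)
    rw [this, map_sum]
    exact Finset.sum_eq_zero fun x _ => (H41.memLocalIdeal_coe_iff _).1 (hcong x)
  rw [Finset.sum_sub_distrib, h0, zero_sub, Finset.sum_const, nsmul_eq_mul, Finset.card_univ,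
    H42.irr_one_eq, ← Nat.cast_mul] at hsum
  obtain ⟨a, b, ha, hb, hab⟩ := hsum
  refine hp.out.not_dvd_mul (fun h => hq (h.trans ?_)) hdp
    (DegWeighted.dvd_of_memLocalIdeal D.hM (n := _) ⟨a, b, ha, hb, hab⟩)
  rw [← Nat.card_eq_fintype_card]
  exact Subgroup.card_subgroup_dvd_card C

/-- The average lives on the common kernel. -/
theorem Data.mem_core_of_avg_ne_zero (D : Data p M P N) [Fintype P] {g : G} (hg : g ∈ N)
    (h : avg M P g ≠ 0) : g ∈ core M P := by
  obtain ⟨u, hu⟩ := D.exists_regular hg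
  have h1 : cnt p P (g * u) = 1 := by rw [cnt_mul]; exact D.main.2 g hg h
  have hc : g * u ∈ Subgroup.centralizer (P : Set G) := Subgroup.mem_centralizer_iff.2 fun v hv =>
    D.commute_of_cnt_one (N.mul_mem hg (D.le u.2)) hu h1 hv
  have := mul_mem (D.centralizer_le_core hc) (inv_mem (le_core (M := M) u.2))
  rwa [mul_inv_cancel_right] at this

/-- The squared degrees of the members trivial on `P` sum to the index of the common kernel. -/
theorem Data.dsq_vset (D : Data p M P N) [Fintype P] :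
    dsq (vset M P) = ((core M P).index : ℝ) := by
  classical
  haveI := Fintype.ofFinite N
  haveI := core_normal (G := G) (M := M) (P := P)
  haveI := Fintype.ofFinite ((core M P).subgroupOf N)
  set A1 := dsq (vset M P) with hA1
  obtain ⟨r, hA, hiff⟩ := D.norm_sum (vset M P) fun χ h => (mem_vset.1 h).1
  rw [hiff.2 fun χ hχ χ' hχ' h => D.vset_restrict_inj hχ hχ' h, Nat.cast_zero, add_zero] at hA
  have hval : ∀ n : N, Complex.normSq (∑ χ ∈ vset M P, (χ : G → ℂ) 1 * (χ : G → ℂ) n) =
      if n ∈ (core M P).subgroupOf N then A1 ^ 2 else 0 := by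
    intro n
    change Complex.normSq (avg M P (n : G)) = _
    split_ifs with hn
    · have e : avg M P (n : G) = avg M P 1 := Finset.sum_congr rfl fun χ hχ => by
        rw [H44.mem_kerOf.1 (mem_core.1 (Subgroup.mem_subgroupOf.1 hn) χ hχ)]
      rw [e, avg_one, Complex.normSq_ofReal, sq]
    · rw [Complex.normSq_eq_zero]
      by_contra hne
      exact hn (Subgroup.mem_subgroupOf.2 (D.mem_core_of_avg_ne_zero n.2 hne))
  rw [Finset.sum_congr rfl fun n _ => hval n, ← Finset.sum_filter, Finset.sum_const,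
    nsmul_eq_mul] at hA
  have hcard : (Finset.univ.filter (fun n : N => n ∈ (core M P).subgroupOf N)).card =
      Nat.card ((core M P).subgroupOf N) := by
    rw [Nat.card_eq_fintype_card, Fintype.card_subtype]
  rw [hcard, sq, ← mul_assoc] at hA
  have hA0 : A1 ≠ 0 := by
    refine (Finset.sum_pos (fun χ _ => pow_pos (Nat.cast_pos.2 (H44.charDegree_pos χ)) 2) ?_).ne'
    haveI := D.hM.2.1
    exact ⟨H26.oneIrr G, mem_vset.2 ⟨H26.oneIrr_mem_principalBlock G,
      by rw [H44.kerOf_oneIrr]; exact le_top⟩⟩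
  have h2 := mul_right_cancel₀ hA0 hA
  have h3 := ((core M P).subgroupOf N).card_mul_index
  have h4 : ((core M P).subgroupOf N).index = (core M P).index := by
    show (core M P).relIndex N = _
    rw [← Subgroup.relIndex_top_right (core M P), ← D.sup_eq_top, sup_comm,
      Subgroup.relIndex_sup_right]
  have h5 : (Nat.card N : ℝ) = (Nat.card ((core M P).subgroupOf N) : ℝ) * (core M P).index := by
    rw [← h4]; exact_mod_cast h3.symm
  rw [h5] at h2
  exact mul_left_cancel₀ (Nat.cast_ne_zero.2 Nat.card_pos.ne') h2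

/-- Every character trivial on the common kernel is in the principal block. -/
theorem Data.mem_of_core_le (D : Data p M P N) [Fintype P] {χ : IrrCharacter G}
    (hχ : core M P ≤ H44.kerOf χ) : χ ∈ Cfsg.principalBlock M G := by
  classical
  haveI := core_normal (G := G) (M := M) (P := P)
  haveI := Fintype.ofFinite (G ⧸ core M P)
  set T := Finset.univ.image (H44.inflate (core M P)) with hT
  have hVT : vset M P ⊆ T := fun ξ hξ => by
    obtain ⟨η, hη⟩ := H44.exists_eq_inflate (core M P) ξ fun g hg => mem_core.1 hg ξ hξ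
    exact Finset.mem_image.2 ⟨η, Finset.mem_univ _, hη⟩
  have hTsum : dsq T = ((core M P).index : ℝ) := by
    refine Complex.ofReal_injective ?_
    rw [dsq_eq, hT, Finset.sum_image fun a _ b _ h => H44.inflate_injective _ h,
      Complex.ofReal_natCast, Subgroup.index_eq_card, ← H26.sum_sq_degrees]
    exact Finset.sum_congr rfl fun η _ => by rw [sq]; rfl
  by_contra hne
  obtain ⟨η, hη⟩ := H44.exists_eq_inflate (core M P) χ hχ
  have hlt : dsq (vset M P) < dsq T := Finset.sum_lt_sum_of_subset hVT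
    (i := χ) (Finset.mem_image.2 ⟨η, Finset.mem_univ _, hη⟩)
    (fun h => hne (mem_vset.1 h).1) (pow_pos (Nat.cast_pos.2 (H44.charDegree_pos χ)) 2)
    fun _ _ _ => sq_nonneg _
  rw [D.dsq_vset, hTsum] at hlt
  exact lt_irrefl _ hlt

set_option maxHeartbeats 1000000 in
/-- Members of `p'`-degree of the principal block of the common kernel are linear. -/
theorem Data.linear (D : Data p M P N) [Fintype P] [Fintype (core M P)]
    {θ : IrrCharacter (core M P)} (hθ : θ ∈ Cfsg.principalBlock M (core M P))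
    (hd : ¬ p ∣ Cfsg.charDegree (θ : core M P → ℂ)) :
    Cfsg.charDegree (θ : core M P → ℂ) = 1 := by
  classical
  haveI := D.hM.2.1
  haveI := core_normal (G := G) (M := M) (P := P)
  -- a linear constituent on `P`
  let j : P →* (core M P) := Subgroup.inclusion le_core
  have hθP : Cfsg.IsCharacter P fun u => (θ : (core M P) → ℂ) (j u) :=
    H26.isCharacter_comp (H26.irr_isCharacter θ) j
  obtain ⟨μ, hμ, hμ1⟩ : ∃ μ : IrrCharacter P, H43.mult (fun u => (θ : (core M P) → ℂ) (j u)) μ ≠ 0 ∧
      Cfsg.charDegree (μ : P → ℂ) = 1 := by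
    by_contra hno
    push Not at hno
    apply hd
    have h := H43.apply_one_eq_sum_mult hθP
    simp only [map_one] at h
    rw [H42.irr_one_eq θ] at h
    have h' : Cfsg.charDegree (θ : (core M P) → ℂ) = ∑ μ : IrrCharacter P,
        H43.mult (fun u => (θ : (core M P) → ℂ) (j u)) μ * Cfsg.charDegree (μ : P → ℂ) := by
      exact_mod_cast h
    rw [h']
    refine Finset.dvd_sum fun μ _ => ?_
    by_cases hm : H43.mult (fun u => (θ : (core M P) → ℂ) (j u)) μ = 0
    · rw [hm, zero_mul]; exact dvd_zero p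
    refine dvd_mul_of_dvd_right ?_ _
    obtain ⟨S, hS⟩ := D.hP
    obtain ⟨k, hk⟩ := IsPGroup.iff_card.1 (hS ▸ S.2 : IsPGroup p P)
    obtain ⟨i, -, hi⟩ := (Nat.dvd_prime_pow hp.out).1 (hk ▸ H43.irr_charDegree_dvd μ)
    rcases i with _ | i
    · exact absurd hi (hno μ hm)
    · rw [hi]; exact dvd_pow_self p i.succ_ne_zero
  -- every character over `θ` is in the principal block
  have hcov : ∀ χ : IrrCharacter G, restrMult (core M P) χ θ ≠ 0 → χ ∈ Cfsg.principalBlock M G := by
    intro χ hχ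
    obtain ⟨ξ, hξ, hξ1⟩ := H42.exists_over_of_covers D.hM (H41.isPBlock_blockOf (M := M) χ)
      (H26.isPBlock_principalBlock (M := M) (core M P)) (H41.mem_blockOf_self χ) hθ hχ
      (H26.oneIrr_mem_principalBlock (M := M) (core M P))
    have hker : (core M P) ≤ H44.kerOf ξ := fun g hg => by
      have hcon : ∀ η : IrrCharacter (core M P), restrMult (core M P) ξ η ≠ 0 → η = H26.oneIrr (core M P) := fun η hη => by
        obtain ⟨x, rfl⟩ := H43.exists_irrConj_of_restrMult_ne_zero (core M P) ξ hξ1 hη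
        exact H42.irrConj_oneIrr x
      rw [H44.mem_kerOf]
      have h := H43.eq_sum_mult (H43.isCharacter_restr (core M P) ξ)
      have h1 := congrFun h ⟨g, hg⟩
      have h2 := congrFun h 1
      simp only [Finset.sum_apply, Pi.smul_apply, smul_eq_mul, OneMemClass.coe_one] at h1 h2
      rw [h1, h2]
      refine Finset.sum_congr rfl fun η _ => ?_
      by_cases hη : restrMult (core M P) ξ η = 0
      · rw [show H43.mult (fun n : (core M P) => (ξ : G → ℂ) n) η = 0 from hη]; simp
      · rw [hcon η hη, H26.oneIrr_val, H26.oneIrr_val]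
    have h3 := D.mem_of_core_le hker
    exact H41.sameBlock_trans h3 (H41.sameBlock_symm hξ)
  -- counting
  have hle : ∀ χ : IrrCharacter G, restrMult (core M P) χ θ ≤ H43.mult (fun u : P => (χ : G → ℂ) u) μ := by
    intro χ
    have h := H43.mult_comp j (H43.isCharacter_restr (core M P) χ) μ
    rw [show (fun u : P => (χ : G → ℂ) u) = fun u => (fun r : (core M P) => (χ : G → ℂ) r) (j u) from rfl, h]
    refine le_trans ?_ (Finset.single_le_sum (fun _ _ => Nat.zero_le _) (Finset.mem_univ θ))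
    exact Nat.le_mul_of_pos_right _ (Nat.pos_of_ne_zero hμ)
  have h1 := H42.sum_restrMult_mul_degree (N := (core M P)) θ
  have h2 : (core M P).index * Cfsg.charDegree (θ : (core M P) → ℂ) ≤
      ∑ χ ∈ bset G M, H43.mult (fun u : P => (χ : G → ℂ) u) μ *
        Cfsg.charDegree (χ : G → ℂ) := by
    rw [← h1, ← Finset.sum_subset (Finset.subset_univ (bset G M)) (fun χ _ hχ => by
      by_cases h0 : restrMult (core M P) χ θ = 0
      · rw [h0, zero_mul]
      · exact absurd (mem_bset.2 (hcov χ h0)) hχ)]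
    exact Finset.sum_le_sum fun χ _ => Nat.mul_le_mul_right _ (hle χ)
  have h3 : (∑ χ ∈ bset G M, H43.mult (fun u : P => (χ : G → ℂ) u) μ *
      Cfsg.charDegree (χ : G → ℂ)) = (core M P).index := by
    apply Nat.cast_injective (R := ℂ)
    push_cast
    have e : ∀ χ : IrrCharacter G, (H43.mult (fun u : P => (χ : G → ℂ) u) μ : ℂ) *
        (Cfsg.charDegree (χ : G → ℂ) : ℂ) =
          (Nat.card P : ℂ)⁻¹ * ∑ u : P, (χ : G → ℂ) 1 * (χ : G → ℂ) u * conj ((μ : P → ℂ) u) := by
      intro χ
      rw [← H43.classInner_eq_mult (φ := fun u : P => (χ : G → ℂ) u)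
          (H26.isCharacter_comp (H26.irr_isCharacter χ) P.subtype),
        ← H42.irr_one_eq, Cfsg.classInner, mul_assoc, Finset.sum_mul]
      exact congrArg _ (Finset.sum_congr rfl fun u _ => by ring)
    rw [Finset.sum_congr rfl fun χ _ => e χ, ← Finset.mul_sum, Finset.sum_comm]
    have hu : ∀ u : P, ∑ χ ∈ bset G M, (χ : G → ℂ) 1 * (χ : G → ℂ) u * conj ((μ : P → ℂ) u) =
        phi M (u : G) * conj ((μ : P → ℂ) u) := fun u => by rw [phi, Finset.sum_mul]
    rw [Finset.sum_congr rfl fun u _ => hu u, Finset.sum_eq_single (1 : P) (fun u _ hu1 => by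
      obtain ⟨S, hS⟩ := D.hP
      obtain ⟨k, hk⟩ := IsPGroup.iff_orderOf.1 (hS ▸ S.2 : IsPGroup p P) u
      rw [← Subgroup.orderOf_coe] at hk
      rcases k with _ | k
      · refine absurd ?_ hu1
        rw [← orderOf_eq_one_iff, ← Subgroup.orderOf_coe]; simpa using hk
      · rw [D.phi_singular (hk ▸ dvd_pow_self p k.succ_ne_zero), zero_mul])
      (fun h => absurd (Finset.mem_univ _) h)]
    have hsum := D.sum_phi_mul N.one_mem
    simp only [one_mul] at hsum
    rw [Finset.sum_eq_single (1 : P) (fun u _ hu1 => by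
      obtain ⟨S, hS⟩ := D.hP
      obtain ⟨k, hk⟩ := IsPGroup.iff_orderOf.1 (hS ▸ S.2 : IsPGroup p P) u
      rw [← Subgroup.orderOf_coe] at hk
      rcases k with _ | k
      · refine absurd ?_ hu1
        rw [← orderOf_eq_one_iff, ← Subgroup.orderOf_coe]; simpa using hk
      · exact D.phi_singular (hk ▸ dvd_pow_self p k.succ_ne_zero))
      (fun h => absurd (Finset.mem_univ _) h)] at hsum
    simp only [OneMemClass.coe_one] at hsum ⊢
    rw [hsum, H42.irr_one_eq μ, hμ1, Nat.cast_one, map_one, mul_one, avg_one, D.dsq_vset,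
      Complex.ofReal_natCast, ← Nat.card_eq_fintype_card, inv_mul_cancel_left₀
        (Nat.cast_ne_zero.2 Nat.card_pos.ne')]
  rw [h3] at h2
  have := Nat.le_of_mul_le_mul_left (h2.trans_eq (mul_one _).symm)
    (Nat.pos_of_ne_zero Subgroup.index_ne_zero_of_finite)
  exact le_antisymm this (H42.charDegree_pos θ)

/-- Irreducible restriction gives `p`-length one. -/
theorem Data.pLengthLE (D : Data p M P N) : Cfsg.PLengthLE p 1 G := by
  classical
  haveI := Fintype.ofFinite P
  haveI hn := core_normal (G := G) (M := M) (P := P)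
  haveI := Fintype.ofFinite (core M P)
  obtain ⟨S, Q, hQn, hQ⟩ := H42.hasNormalPComplement_of_linear (G := core M P) D.hM
    fun θ hθ hd => D.linear hθ hd
  obtain ⟨T, hT⟩ := D.hP
  refine H19.pLengthLE_one_of_normal (core M P)
    (fun h => T.not_dvd_index (h.trans (Subgroup.index_dvd_of_le (hT ▸ le_core)))) ?_
  rw [H53.pLengthLE_one_iff]
  have hcop : (Nat.card Q).Coprime p := by
    rw [← hQ.index_eq_card]
    exact ((Nat.Prime.coprime_iff_not_dvd hp.out).2 S.not_dvd_index).symm
  have hQc : Q ≤ Cfsg.pPrimeCore p (core M P) := H19.le_pPrimeCore hQn hcop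
  obtain ⟨k, hk⟩ := IsPGroup.iff_card.1 S.2
  have htop : (⊤ : Subgroup (core M P)) ≤ Cfsg.pPrimePCore p (core M P) := by
    refine H19.le_pPrimePCore_of_forall inferInstance fun x _ => ⟨k, hQc ?_⟩
    haveI := hQn
    rw [← QuotientGroup.eq_one_iff, QuotientGroup.mk_pow, ← hk, ← hQ.symm.index_eq_card,
      Subgroup.index_eq_card]
    exact pow_card_eq_one'
  rw [top_le_iff.1 htop, Subgroup.index_top]
  exact Nat.coprime_one_left p

end Cfsg.Agent.H41.PLengthOne
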