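import Mathlib
import Cfsg.Agent.H19.Cores
import Cfsg.Agent.H19.Fitting
import Cfsg.Agent.H19.Vanishing
import Cfsg.Agent.H20.PxQ
import Cfsg.Agent.H24.PGroupBasic
import Cfsg.Agent.H27.ThreeDegrees
import Cfsg.Agent.H44.NormalDegrees
import Cfsg.Agent.H44.RelDegreeGraphBasic
import Cfsg.Agent.H84.FittingTools

/-!
# Solvable groups with squarefree character degrees

Every `O_q(G/F(G))` has order at most `q`, so `G/F(G)` is metabelian, and the Fitting subgroup is
metabelian as each Sylow subgroup has at most two degrees.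
-/

set_option autoImplicit false

open scoped commutatorElement

namespace Cfsg.Agent.H41.SqfDeg

universe u v

/-- All degrees are squarefree. -/
def SqDeg (X : Type u) [Group X] : Prop :=
  ∀ χ : Cfsg.IrrCharacter X, Squarefree (Cfsg.charDegree (χ : X → ℂ))

theorem SqDeg.of_surjective {X : Type u} {Y : Type v} [Group X] [Finite X] [Group Y]
    (h : SqDeg X) (f : X →* Y) (hf : Function.Surjective f) : SqDeg Y := fun ψ => by
  have := h ⟨fun g => ψ.1 (f g), H44.isIrrCharacter_comp_surjective f hf ψ.2⟩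
  simpa [Cfsg.charDegree, map_one] using this

theorem SqDeg.normal {X : Type u} [Group X] [Finite X] (h : SqDeg X) (N : Subgroup X) [N.Normal] :
    SqDeg N := fun θ => by
  haveI := Fintype.ofFinite X
  haveI := Fintype.ofFinite N
  obtain ⟨χ, hχ⟩ := H44.exists_irr_over N θ
  exact (h χ).squarefree_of_dvd
    ((dvd_mul_left _ _).trans (H44.degree_mul_index_inertia_dvd N χ θ hχ))

theorem commutator_le_frattini_of_nilpotent {M : Type u} [Group M] [Group.IsNilpotent M] :
    commutator M ≤ frattini M := by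
  refine le_iInf₂ fun K hK => ?_
  have hn : K.Normal :=
    Subgroup.NormalizerCondition.normal_of_coatom K Group.normalizerCondition_of_isNilpotent hK
  obtain ⟨x, hx⟩ : ∃ x, x ∉ K := by
    by_contra hcon
    push Not at hcon
    exact hK.1 (eq_top_iff.2 fun x _ => hcon x)
  have hsup : K ⊔ Subgroup.zpowers x = ⊤ :=
    hK.2 _ (lt_of_le_of_ne le_sup_left fun he =>
      hx (he ▸ Subgroup.mem_sup_right (Subgroup.mem_zpowers x)))
  rw [commutator_def, Subgroup.commutator_le]
  intro a _ b _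
  obtain ⟨a₁, ha₁, a₂, ⟨i, rfl⟩, rfl⟩ := Subgroup.mem_sup_of_normal_left.1 (hsup ▸ Subgroup.mem_top a)
  obtain ⟨b₁, hb₁, b₂, ⟨j, rfl⟩, rfl⟩ := Subgroup.mem_sup_of_normal_left.1 (hsup ▸ Subgroup.mem_top b)
  rw [← QuotientGroup.eq_one_iff, ← QuotientGroup.mk'_apply, map_commutatorElement,
    commutatorElement_eq_one_iff_mul_comm]
  simp only [map_mul, QuotientGroup.mk'_apply, (QuotientGroup.eq_one_iff _).2 ha₁,
    (QuotientGroup.eq_one_iff _).2 hb₁, one_mul, ← QuotientGroup.mk_mul]
  rw [show x ^ i * x ^ j = x ^ j * x ^ i from (Commute.zpow_zpow_self x i j).eq]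

variable {q : ℕ} [Fact q.Prime]

/-- No abelian group of order `q²` acts faithfully and coprimely on an abelian normal subgroup. -/
theorem false_of_faithful {X : Type u} [Group X] [Finite X] (h : SqDeg X) (M R : Subgroup X)
    [M.Normal] [IsMulCommutative M] [IsMulCommutative R] (hM : ¬ q ∣ Nat.card M)
    (hR : Nat.card R = q ^ 2) (hsup : M ⊔ R = ⊤)
    (hf : ∀ r ∈ R, (∀ m ∈ M, r * m = m * r) → r = 1) : False := by
  classical
  haveI := Fintype.ofFinite X
  haveI := Fintype.ofFinite M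
  have hqp : q.Prime := Fact.out
  obtain ⟨l, hl⟩ := H19.exists_regular_linear M R hM (IsPGroup.of_card (n := 2) hR) hf
  set θ := H44.RelGraph.linI M l with hθ
  have hcl : M ≤ H44.inertia M θ.1 := H44.le_inertia M (H26.irr_isClassFunction θ)
  have hI : H44.inertia M θ.1 = M := by
    refine le_antisymm (fun g hg => ?_) hcl
    obtain ⟨m, hm, r, hr, rfl⟩ := Subgroup.mem_sup_of_normal_left.1 (hsup ▸ Subgroup.mem_top g)
    have hr' : r ∈ H44.RelGraph.stab M l := by
      have h2 := Subgroup.mul_mem _ ((H44.inertia M θ.1).inv_mem (hcl hm)) hg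
      rwa [inv_mul_cancel_left] at h2
    rw [hl r hr ((H44.RelGraph.mem_stab M).1 hr'), mul_one]
    exact hm
  have hidx : M.index = q ^ 2 := by
    have hd : M ⊓ R = ⊥ := Subgroup.inf_eq_bot_of_coprime
      (by rw [hR]; exact ((hqp.coprime_iff_not_dvd.2 hM).symm.pow_right 2))
    rw [← Subgroup.relIndex_top_right M, ← hsup, sup_comm, Subgroup.relIndex_sup_right,
      ← Subgroup.inf_relIndex_right, hd, Subgroup.relIndex_bot_left, hR]
  obtain ⟨χ, hχ⟩ := H44.exists_irr_over M θ
  have hd := (dvd_mul_right _ _).trans (H44.degree_mul_index_inertia_dvd M χ θ hχ)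
  rw [hI, hidx, sq] at hd
  exact hqp.not_isUnit (h χ q hd)

/-- No `q`-group acts coprimely on a nilpotent normal subgroup with kernel of index `q²`. -/
theorem false_of_sq {X : Type u} [Group X] [Finite X] (h : SqDeg X) (M O P : Subgroup X)
    [M.Normal] [O.Normal] [Group.IsNilpotent M] (hM : ¬ q ∣ Nat.card M) (hP : IsPGroup q P)
    (hOP : O ≤ P) (hsup : M ⊔ P = ⊤) (hidx : O.relIndex P = q ^ 2)
    (hc : ∀ r ∈ P, r ∈ Subgroup.centralizer (M : Set X) → r ∈ O) : False := by
  have hqp : q.Prime := Fact.out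
  set Φ := (frattini M).map M.subtype with hΦ
  haveI : Φ.Normal := ConjAct.normal_of_characteristic_of_normal
  have hΦM : Φ ≤ M := Subgroup.map_subtype_le _
  set N := Φ ⊔ O with hN
  haveI : N.Normal := Subgroup.sup_normal Φ O
  have hMP : M ⊓ P = ⊥ := by
    obtain ⟨k, hk⟩ := IsPGroup.iff_card.1 hP
    exact Subgroup.inf_eq_bot_of_coprime
      (by rw [hk]; exact ((hqp.coprime_iff_not_dvd.2 hM).symm.pow_right k))
  have hPN : ∀ x ∈ P, x ∈ N → x ∈ O := by
    intro x hx hxN
    obtain ⟨f, hf, o, ho, rfl⟩ := Subgroup.mem_sup_of_normal_left.1 hxN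
    have hfP : f ∈ M ⊓ P := ⟨hΦM hf, by
      simpa using P.mul_mem hx (P.inv_mem (hOP ho))⟩
    rw [hMP, Subgroup.mem_bot] at hfP
    simpa [hfP] using ho
  have hMN : ∀ x ∈ M, x ∈ N → x ∈ Φ := by
    intro x hx hxN
    obtain ⟨f, hf, o, ho, rfl⟩ := Subgroup.mem_sup_of_normal_left.1 hxN
    have hoM : o ∈ M ⊓ P := ⟨by simpa using M.mul_mem (M.inv_mem (hΦM hf)) hx, hOP ho⟩
    rw [hMP, Subgroup.mem_bot] at hoM
    simpa [hoM] using hf
  set π := QuotientGroup.mk' N with hπ
  have hsurj : Function.Surjective π := QuotientGroup.mk'_surjective N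
  haveI : (M.map π).Normal := Subgroup.Normal.map ‹_› π hsurj
  haveI : IsMulCommutative (M.map π) := by
    refine ⟨⟨?_⟩⟩
    rintro ⟨_, a, ha, rfl⟩ ⟨_, b, hb, rfl⟩
    refine Subtype.ext ?_
    show π a * π b = π b * π a
    rw [← commutatorElement_eq_one_iff_mul_comm, ← map_commutatorElement, hπ,
      QuotientGroup.mk'_apply, QuotientGroup.eq_one_iff]
    exact Subgroup.mem_sup_left ⟨⁅(⟨a, ha⟩ : M), ⟨b, hb⟩⁆,
      commutator_le_frattini_of_nilpotent
        (Subgroup.commutator_mem_commutator (Subgroup.mem_top _) (Subgroup.mem_top _)), rfl⟩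
  have hcard : Nat.card (P.map π) = q ^ 2 := by
    rw [← Subgroup.relIndex_ker, hπ, QuotientGroup.ker_mk', ← Subgroup.inf_relIndex_right,
      show N ⊓ P = O from le_antisymm (fun x hx => hPN x hx.2 hx.1)
        (le_inf le_sup_right hOP), hidx]
  haveI : IsMulCommutative (P.map π) :=
    ⟨⟨IsPGroup.commutative_of_card_eq_prime_sq hcard⟩⟩
  refine false_of_faithful (q := q) (h.of_surjective π hsurj) (M.map π) (P.map π)
    (fun hd => hM (hd.trans (Subgroup.card_map_dvd M π))) hcard
    (by rw [← Subgroup.map_sup, hsup, Subgroup.map_top_of_surjective π hsurj]) ?_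
  rintro _ ⟨r, hr, rfl⟩ hcomm
  have hrc : r ∈ Subgroup.centralizer (M : Set X) := by
    refine H20.le_centralizer_of_trivial_on_frattini (A := Subgroup.zpowers r) (K := M) ?_ ?_ ?_
      (Subgroup.mem_zpowers r)
    · rw [Subgroup.normalizer_eq_top]; exact le_top
    · obtain ⟨k, hk⟩ := IsPGroup.iff_card.1 (hP.to_le (Subgroup.zpowers_le.2 hr))
      rw [hk]
      exact Nat.Coprime.pow_left k (hqp.coprime_iff_not_dvd.2
        fun hd => hM (hd.trans (Subgroup.card_subgroup_dvd_card _)))
    · intro a ha m hm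
      refine hMN _ (M.mul_mem (Subgroup.Normal.conj_mem ‹M.Normal› m hm a) (M.inv_mem hm)) ?_
      rw [← QuotientGroup.eq_one_iff, ← QuotientGroup.mk'_apply]
      obtain ⟨i, rfl⟩ := ha
      have hC : Commute (π r) (π m) := hcomm _ ⟨m, hm, rfl⟩
      show π (r ^ i * m * (r ^ i)⁻¹ * m⁻¹) = 1
      simp only [map_mul, map_inv, map_zpow, (hC.zpow_left i).eq]
      group
  rw [hπ, QuotientGroup.mk'_apply, QuotientGroup.eq_one_iff]
  exact Subgroup.mem_sup_right (hc r hr hrc)

/-- The `q'`-part of the Fitting subgroup has order prime to `q`. -/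
theorem fittingPrimeTo_coprime {G : Type u} [Group G] [Finite G] :
    (Nat.card (H84.fittingPrimeTo q G)).Coprime q := by
  refine (H19.pPrimeCore_coprime (G := G) q).coprime_dvd_left
    (Subgroup.card_dvd_of_le (iSup_le fun r => ?_))
  haveI : Fact ((r.1 : ℕ)).Prime := ⟨r.1.2⟩
  obtain ⟨k, hk⟩ := IsPGroup.iff_card.mp (H19.pCore_isPGroup (G := G) (r.1 : ℕ))
  refine H19.le_pPrimeCore (H19.pCore_normal _ G) ?_
  rw [hk]
  exact ((Nat.coprime_primes r.1.2 Fact.out).mpr r.2).pow_left k

/-- `O_q(G/F(G))` has order at most `q`. -/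
theorem card_pCore_quotient_fitting {G : Type u} [Group G] [Finite G] (h : SqDeg G)
    [(Cfsg.fittingSubgroup G).Normal] :
    Nat.card (Cfsg.pCore q (G ⧸ Cfsg.fittingSubgroup G)) ∣ q := by
  classical
  have hqp : q.Prime := Fact.out
  set F := Cfsg.fittingSubgroup G with hF
  set O := Cfsg.pCore q G with hO
  set M := H84.fittingPrimeTo q G with hM
  haveI : M.Normal := H84.fittingPrimeTo_normal q G
  haveI : O.Normal := H19.pCore_normal q G
  haveI := H19.pCore_normal q (G ⧸ F)
  set Q := Cfsg.pCore q (G ⧸ F) with hQ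
  have hQp : IsPGroup q Q := H19.pCore_isPGroup q
  obtain ⟨k, hk⟩ := IsPGroup.iff_card.1 hQp
  rw [hk]
  rcases le_or_gt k 1 with hk1 | hk1
  · simpa using pow_dvd_pow q hk1
  exfalso
  obtain ⟨K, hKn, -, hKc⟩ := H24.exists_normal_le_card (G := Q) hQp (N := ⊤)
    (k := k) (by rw [Subgroup.card_top, hk]) (j := 2) hk1
  set π := QuotientGroup.mk' F with hπ
  set U : Subgroup (G ⧸ F) := K.map Q.subtype with hU
  set X := U.comap π with hX
  set L := Q.comap π with hL
  have hUQ : U ≤ Q := Subgroup.map_subtype_le _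
  have hXL : X ≤ L := Subgroup.comap_mono hUQ
  have hFX : F ≤ X := (QuotientGroup.ker_mk' F).symm.le.trans (Subgroup.ker_le_comap _ _)
  haveI : L.Normal := inferInstanceAs (Q.comap π).Normal
  have hUc : Nat.card U = q ^ 2 := by
    rw [hU, Subgroup.card_map_of_injective Q.subtype_injective, hKc]
  have hFXi : F.relIndex X = q ^ 2 := by
    rw [← hUc, ← Subgroup.map_comap_eq_self_of_surjective (QuotientGroup.mk'_surjective F) U,
      ← Subgroup.relIndex_ker, QuotientGroup.ker_mk']
  -- `X` has squarefree degrees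
  haveI hXn : (X.subgroupOf L).Normal := by
    refine ⟨fun x hx g => ?_⟩
    rw [Subgroup.mem_subgroupOf] at hx ⊢
    obtain ⟨a, ha, hax⟩ := (hx : π x ∈ U)
    refine Subgroup.mem_comap.2 ⟨⟨π g, g.2⟩ * a * (⟨π g, g.2⟩ : Q)⁻¹, hKn.conj_mem a ha _, ?_⟩
    simpa using hax
  have hsX : SqDeg X := ((h.normal L).normal (X.subgroupOf L)).of_surjective
    (Subgroup.subgroupOfEquivOfLe hXL).toMonoidHom (Subgroup.subgroupOfEquivOfLe hXL).surjective
  -- the pieces inside `X`
  have hMF : M ≤ F := H84.fittingPrimeTo_le q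
  have hOF : O ≤ F := H19.pCore_le_fitting q
  have hMX : M ≤ X := hMF.trans hFX
  have hMcop : ¬ q ∣ Nat.card M :=
    hqp.coprime_iff_not_dvd.1 (fittingPrimeTo_coprime (G := G)).symm
  have hOp : IsPGroup q O := H19.pCore_isPGroup q
  set M' := M.subgroupOf X with hM'
  set O' := O.subgroupOf X with hO'
  haveI : Group.IsNilpotent M' := by
    haveI := H19.fitting_isNilpotent (G := G)
    haveI : Group.IsNilpotent M :=
      (Group.isNilpotent_congr (Subgroup.subgroupOfEquivOfLe hMF)).1 inferInstance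
    exact (Group.isNilpotent_congr (Subgroup.subgroupOfEquivOfLe hMX)).2 inferInstance
  obtain ⟨P, hOP⟩ := (hOp.comap_subtype (K := X)).exists_le_sylow
  -- orders
  have hMO : Nat.card F = Nat.card M * Nat.card O := by
    have hd : M ⊓ O = ⊥ := by
      obtain ⟨a, ha⟩ := IsPGroup.iff_card.1 hOp
      exact Subgroup.inf_eq_bot_of_coprime
        (by rw [ha]; exact ((hqp.coprime_iff_not_dvd.2 hMcop).symm.pow_right a))
    have h2 : M.relIndex F = Nat.card O := by
      have hFe : F = O ⊔ M := H84.fitting_eq_sup_fittingPrimeTo q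
      rw [hFe, Subgroup.relIndex_sup_right, ← Subgroup.inf_relIndex_right, hd,
        Subgroup.relIndex_bot_left]
    have h1 := Subgroup.relIndex_mul_relIndex ⊥ M F bot_le hMF
    rw [Subgroup.relIndex_bot_left, Subgroup.relIndex_bot_left, h2] at h1
    exact h1.symm
  obtain ⟨a, ha⟩ := IsPGroup.iff_card.1 hOp
  have hXc : Nat.card X = Nat.card M * q ^ (a + 2) := by
    have h1 := Subgroup.relIndex_mul_relIndex ⊥ F X bot_le hFX
    rw [Subgroup.relIndex_bot_left, Subgroup.relIndex_bot_left, hFXi, hMO, ha] at h1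
    rw [← h1, pow_add, mul_assoc]
  have hPc : Nat.card P = q ^ (a + 2) := by
    rw [Sylow.card_eq_multiplicity, hXc, Nat.factorization_mul Nat.card_pos.ne'
      (pow_ne_zero _ hqp.ne_zero), Finsupp.add_apply, Nat.factorization_eq_zero_of_not_dvd hMcop,
      hqp.factorization_pow, Finsupp.single_eq_same, zero_add]
  have hM'c : Nat.card M' = Nat.card M := Nat.card_congr (Subgroup.subgroupOfEquivOfLe hMX).toEquiv
  have hO'c : Nat.card O' = q ^ a := by
    rw [← ha]; exact Nat.card_congr (Subgroup.subgroupOfEquivOfLe (hOF.trans hFX)).toEquiv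
  have hd : M' ⊓ (P : Subgroup X) = ⊥ := Subgroup.inf_eq_bot_of_coprime
    (by rw [hM'c, hPc]; exact ((hqp.coprime_iff_not_dvd.2 hMcop).symm.pow_right _))
  refine false_of_sq (q := q) hsX M' O' (P : Subgroup X) (by rwa [hM'c]) P.2 hOP ?_ ?_ ?_
  · refine Subgroup.eq_top_of_card_eq _ ?_
    have h1 := Subgroup.relIndex_mul_relIndex ⊥ M' (M' ⊔ (P : Subgroup X)) bot_le le_sup_left
    rw [Subgroup.relIndex_bot_left, Subgroup.relIndex_bot_left, sup_comm,
      Subgroup.relIndex_sup_right, ← Subgroup.inf_relIndex_right, hd, Subgroup.relIndex_bot_left,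
      hM'c, hPc] at h1
    rw [hXc, sup_comm, h1]
  · have h1 := Subgroup.relIndex_mul_relIndex ⊥ O' (P : Subgroup X) bot_le hOP
    rw [Subgroup.relIndex_bot_left, Subgroup.relIndex_bot_left, hO'c, hPc, pow_add] at h1
    exact mul_left_cancel₀ (pow_ne_zero _ hqp.ne_zero) h1
  · intro r hr hrc
    have hrF : (r : G) ∈ F := by
      refine H84.mem_fitting_of_mem_comap_pCore q (r : G) (hUQ r.2) fun p hp hpq => ?_
      have hle : Cfsg.pCore p G ≤ M :=
        le_iSup (fun r : {p : Nat.Primes // (p : ℕ) ≠ q} => Cfsg.pCore (r.1 : ℕ) G) ⟨⟨p, hp⟩, hpq⟩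
      refine Subgroup.mem_centralizer_iff.2 fun m hm => ?_
      exact congrArg Subtype.val
        (Subgroup.mem_centralizer_iff.1 hrc ⟨m, hMX (hle hm)⟩ (hle hm))
    -- a `q`-element of `F` lies in `O`
    haveI := H19.fitting_isNilpotent (G := G)
    obtain ⟨b, hb⟩ := IsPGroup.iff_orderOf.1 P.2 ⟨r, hr⟩
    rw [Subgroup.orderOf_mk, ← Subgroup.orderOf_coe] at hb
    obtain ⟨m, hm, o, ho, hmo⟩ := Subgroup.mem_sup_of_normal_left.1
      (show (r : G) ∈ M ⊔ O by rw [sup_comm, ← H84.fitting_eq_sup_fittingPrimeTo q]; exact hrF)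
    have hcmo : Commute m o := Subgroup.commute_of_normal_of_disjoint M O ‹_› ‹_›
      (disjoint_iff.2 (Subgroup.inf_eq_bot_of_coprime
        (by rw [ha]; exact ((hqp.coprime_iff_not_dvd.2 hMcop).symm.pow_right a)))) m o hm ho
    have ho1 : o ^ q ^ (b + a) = 1 := by
      refine orderOf_dvd_iff_pow_eq_one.1 ((Subgroup.orderOf_dvd_natCard O ho).trans ?_)
      rw [ha]; exact pow_dvd_pow q (Nat.le_add_left a b)
    have hm1 : m ^ q ^ (b + a) = 1 := by
      have hr1 : (r : G) ^ q ^ (b + a) = 1 :=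
        orderOf_dvd_iff_pow_eq_one.1 (hb ▸ pow_dvd_pow q (Nat.le_add_right b a))
      rwa [← hmo, hcmo.mul_pow, ho1, mul_one] at hr1
    have : m = 1 := orderOf_eq_one_iff.1 (Nat.eq_one_of_dvd_coprimes
      ((hqp.coprime_iff_not_dvd.2 hMcop).pow_left (b + a))
      (orderOf_dvd_iff_pow_eq_one.2 hm1) (Subgroup.orderOf_dvd_natCard M hm))
    rw [hO', Subgroup.mem_subgroupOf, ← hmo, this, one_mul]
    exact ho

omit [Fact q.Prime]

/-- The commutator subgroup centralises every cyclic normal subgroup. -/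
theorem commutator_le_centralizer_cyclic {H : Type u} [Group H] (C : Subgroup H) [C.Normal]
    [IsCyclic C] : commutator H ≤ Subgroup.centralizer (C : Set H) := by
  rw [commutator_def, Subgroup.commutator_le]
  intro g _ h _
  obtain ⟨i, hi⟩ := MonoidHom.map_cyclic (MulAut.conjNormal g : C ≃* C).toMonoidHom
  obtain ⟨j, hj⟩ := MonoidHom.map_cyclic (MulAut.conjNormal h : C ≃* C).toMonoidHom
  have hi' : ∀ y ∈ C, g * y * g⁻¹ = y ^ i := fun y hy => by
    simpa using congrArg Subtype.val (hi ⟨y, hy⟩)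
  have hj' : ∀ y ∈ C, h * y * h⁻¹ = y ^ j := fun y hy => by
    simpa using congrArg Subtype.val (hj ⟨y, hy⟩)
  refine Subgroup.mem_centralizer_iff.2 fun c hc => ?_
  set y := (h * g)⁻¹ * c * (h * g) with hy
  have hyC : y ∈ C := by
    simpa [hy, mul_assoc] using Subgroup.Normal.conj_mem ‹C.Normal› c hc (h * g)⁻¹
  have h1 : g * h * y * (g * h)⁻¹ = c := by
    calc g * h * y * (g * h)⁻¹ = g * (h * y * h⁻¹) * g⁻¹ := by group
      _ = (y ^ j) ^ i := by rw [hj' y hyC, hi' _ (C.zpow_mem hyC j)]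
      _ = (y ^ i) ^ j := by rw [← zpow_mul, ← zpow_mul, mul_comm]
      _ = h * (g * y * g⁻¹) * h⁻¹ := by rw [hi' y hyC, hj' _ (C.zpow_mem hyC i)]
      _ = c := by rw [hy]; group
  calc c * ⁅g, h⁆ = g * h * y * (g * h)⁻¹ * ⁅g, h⁆ := by rw [h1]
    _ = ⁅g, h⁆ * c := by rw [hy, commutatorElement_def]; group

/-- If every `O_p` has order dividing `p`, the second derived subgroup is trivial. -/
theorem derivedSeries_two_of_small_cores {H : Type u} [Group H] [Finite H] [Group.IsSolvable H]
    (hs : ∀ (p : ℕ) [Fact p.Prime], Nat.card (Cfsg.pCore p H) ∣ p) :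
    derivedSeries H 2 = ⊥ := by
  have hF : commutator H ≤ Subgroup.centralizer (Cfsg.fittingSubgroup H : Set H) := by
    rw [Subgroup.le_centralizer_iff, H19.fitting_eq_iSup_pCore]
    refine iSup_le fun p => ?_
    haveI : Fact (p : ℕ).Prime := ⟨p.2⟩
    haveI := H19.pCore_normal (p : ℕ) H
    haveI : IsCyclic (Cfsg.pCore (p : ℕ) H) := isCyclic_of_card_dvd_prime (hs p)
    exact Subgroup.le_centralizer_iff.1 (commutator_le_centralizer_cyclic _)
  refine H33.derivedSeries_two_eq_bot ⟨⟨fun x y => Subtype.ext ?_⟩⟩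
  exact Subgroup.mem_centralizer_iff.1 (hF y.2) x (H19.centralizer_fitting_le (hF x.2))

/-- A finite nilpotent group with squarefree degrees is metabelian. -/
theorem derivedSeries_two_of_nilpotent {F : Type u} [Group F] [Finite F] [Group.IsNilpotent F]
    (h : SqDeg F) : derivedSeries F 2 = ⊥ := by
  classical
  haveI : (⊤ : Subgroup F).Normal := inferInstance
  haveI : Group.IsNilpotent (⊤ : Subgroup F) :=
    (Group.isNilpotent_congr Subgroup.topEquiv).2 inferInstance
  have htop : Cfsg.fittingSubgroup F = ⊤ :=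
    top_le_iff.1 (H19.le_fitting (inferInstance : (⊤ : Subgroup F).Normal) inferInstance)
  have hle : ∀ p : ℕ, p.Prime → derivedSeries F 2 ≤ H84.fittingPrimeTo p F := by
    intro p hp
    haveI := Fact.mk hp
    haveI := H84.fittingPrimeTo_normal p F
    obtain ⟨k, hk⟩ := H84.relIndex_fittingPrimeTo (G := F) p
    rw [htop, Subgroup.relIndex_top_right, Subgroup.index_eq_card] at hk
    set π := QuotientGroup.mk' (H84.fittingPrimeTo p F)
    have hd : derivedSeries (F ⧸ H84.fittingPrimeTo p F) 2 = ⊥ :=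
      H27.ThreeDeg.two_degrees p fun χ => by
        have hdvd := H43.irr_charDegree_dvd χ
        rw [hk, Nat.dvd_prime_pow hp] at hdvd
        obtain ⟨j, -, hj⟩ := hdvd
        have hsq := h.of_surjective π (QuotientGroup.mk'_surjective _) χ
        rw [hj] at hsq ⊢
        rcases Nat.lt_or_ge j 2 with hj2 | hj2
        · interval_cases j <;> simp
        · exact absurd (hsq p (by rw [← sq]; exact pow_dvd_pow p hj2)) hp.not_isUnit
    have h2 := map_derivedSeries_le_derivedSeries π 2
    rw [hd, le_bot_iff, Subgroup.map_eq_bot_iff, QuotientGroup.ker_mk'] at h2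
    exact h2
  refine (Subgroup.eq_bot_iff_forall _).2 fun x hx => orderOf_eq_one_iff.1 ?_
  by_contra hne
  obtain ⟨p, hp, hpd⟩ := Nat.exists_prime_and_dvd hne
  haveI := Fact.mk hp
  have h1 := Subgroup.orderOf_dvd_natCard _ (hle p hp hx)
  exact hp.ne_one (Nat.eq_one_of_dvd_coprimes (fittingPrimeTo_coprime (G := F) (q := p))
    (hpd.trans h1) dvd_rfl)

/-- A solvable group with squarefree degrees has derived length at most four. -/
theorem derivedSeries_four_eq_bot {G : Type u} [Group G] [Finite G] [Group.IsSolvable G]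
    (h : SqDeg G) : derivedSeries G 4 = ⊥ := by
  haveI := H19.fitting_normal G
  haveI := H19.fitting_isNilpotent (G := G)
  set F := Cfsg.fittingSubgroup G with hF
  have hH : derivedSeries (G ⧸ F) 2 = ⊥ :=
    derivedSeries_two_of_small_cores fun p _ => card_pCore_quotient_fitting h
  have h0 : derivedSeries G 2 ≤ F := by
    have h2 := map_derivedSeries_le_derivedSeries (QuotientGroup.mk' F) 2
    rwa [hH, le_bot_iff, Subgroup.map_eq_bot_iff, QuotientGroup.ker_mk'] at h2
  have hk : ∀ k, derivedSeries G (2 + k) ≤ (derivedSeries F k).map F.subtype := by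
    intro k
    induction k with
    | zero =>
      rw [Nat.add_zero, derivedSeries_zero, ← MonoidHom.range_eq_map, Subgroup.range_subtype]
      exact h0
    | succ k ih =>
      rw [← Nat.add_assoc, derivedSeries_succ, derivedSeries_succ, Subgroup.map_commutator]
      exact Subgroup.commutator_mono ih ih
  rw [eq_bot_iff]
  refine (hk 2).trans ?_
  rw [derivedSeries_two_of_nilpotent (h.normal F), Subgroup.map_bot]

end Cfsg.Agent.H41.SqfDeg
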